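import Mathlib

set_option autoImplicit false

namespace Cfsg.Agent.Lib.Helper2

open Subgroup

/-- In a cyclic `p`-group two subgroups meeting trivially cannot both be nontrivial. -/
theorem eq_bot_or_eq_bot_of_disjoint_of_cyclic {C : Type*} [Group C] [Finite C] [IsCyclic C] {p : ℕ}
    [Fact p.Prime] (hC : IsPGroup p C) (U V : Subgroup C) (h : Disjoint U V) : U = ⊥ ∨ V = ⊥ := by
  have hp : p.Prime := Fact.out
  letI : CommGroup C := IsCyclic.commGroup
  let f : U × V →* C := U.subtype.coprod V.subtype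
  have hf : Function.Injective f := by
    rw [injective_iff_map_eq_one]
    rintro ⟨u, v⟩ huv
    have h1 : (u : C) * v = 1 := huv
    have h2 : (u : C) = (v : C)⁻¹ := eq_inv_of_mul_eq_one_left h1
    have h3 : (u : C) ∈ U ⊓ V := ⟨u.2, by rw [h2]; exact V.inv_mem v.2⟩
    rw [h.eq_bot, mem_bot] at h3
    have h4 : (v : C) = 1 := by rw [h3, one_mul] at h1; exact h1
    exact Prod.ext (Subtype.ext h3) (Subtype.ext h4)
  haveI : IsCyclic (U × V) := isCyclic_of_injective f hf
  have hcop := coprime_card_of_isCyclic_prod U V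
  obtain ⟨a, ha⟩ := (hC.to_subgroup U).exists_card_eq
  obtain ⟨b, hb⟩ := (hC.to_subgroup V).exists_card_eq
  rw [ha, hb] at hcop
  rcases Nat.eq_zero_or_pos a with rfl | ha0
  · left; rw [pow_zero] at ha; exact Subgroup.card_eq_one.mp ha
  · rcases Nat.eq_zero_or_pos b with rfl | hb0
    · right; rw [pow_zero] at hb; exact Subgroup.card_eq_one.mp hb
    · exfalso
      have h1 : p ∣ p ^ a := dvd_pow_self p ha0.ne'
      have h2 : p ∣ p ^ b := dvd_pow_self p hb0.ne'
      exact hp.one_lt.ne' (Nat.eq_one_of_dvd_coprimes hcop h1 h2)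

theorem eq_bot_or_eq_bot_of_inf_eq_bot_of_cyclic {X : Type*} [Group X] [Finite X] {p : ℕ}
    [Fact p.Prime] (A : Subgroup X) [IsCyclic A] (hA : IsPGroup p A) (U V : Subgroup X) (hU : U ≤ A)
    (hV : V ≤ A) (h : U ⊓ V = ⊥) : U = ⊥ ∨ V = ⊥ := by
  have h1 : Disjoint (U.subgroupOf A) (V.subgroupOf A) := by
    rw [disjoint_iff, eq_bot_iff]
    rintro x ⟨hx1, hx2⟩
    have hx : (x : X) ∈ U ⊓ V := ⟨mem_subgroupOf.mp hx1, mem_subgroupOf.mp hx2⟩
    rw [h, mem_bot] at hx
    rw [mem_bot]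
    exact Subtype.ext hx
  rcases eq_bot_or_eq_bot_of_disjoint_of_cyclic hA _ _ h1 with h2 | h2
  · left
    rw [Subgroup.subgroupOf_eq_bot, disjoint_iff, inf_eq_left.mpr hU] at h2
    exact h2
  · right
    rw [Subgroup.subgroupOf_eq_bot, disjoint_iff, inf_eq_left.mpr hV] at h2
    exact h2

end Cfsg.Agent.Lib.Helper2
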