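/-
Helper library (helper2): in a group of characteristic 2 type, a four-group normal in a Sylow 2-subgroup
(central if the centre is not cyclic) centralizes every odd order subgroup it normalizes.
-/
import Cfsg.Agent.Lib.Helper2.ScnFitting
import Cfsg.Agent.Lib.Helper22.Generation2
import Cfsg.Agent.Lib.Helper1.Nilpotent
import Cfsg.Prelude.Def_CaseTheorems

set_option autoImplicit false

namespace Cfsg.Agent.Lib.Helper2

open Cfsg Cfsg.Agent.Lib.Helper34

/-- If `C_H(O_2(H)) ≤ O_2(H)`, `u` is a central element with `u ^ 2 = 1` and `[v, O_2(H)] ⊆ {1, u}`, then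
`v ∈ O_2(H)`. -/
theorem mem_pCore_two_of_commutator_central {H : Type*} [Group H] [Finite H]
    (hc : Subgroup.centralizer (pCore 2 H : Set H) ≤ pCore 2 H) (u : H) (hu : u ∈ Subgroup.center H) (v : H)
    (hv : ∀ r ∈ pCore 2 H, v * r * v⁻¹ * r⁻¹ = 1 ∨ v * r * v⁻¹ * r⁻¹ = u) : v ∈ pCore 2 H := by
  haveI : Fact (2 : ℕ).Prime := ⟨Nat.prime_two⟩
  set R := pCore 2 H with hR
  set N : Subgroup H := Subgroup.zpowers u with hN
  haveI hNn : N.Normal := Cfsg.Agent.Lib.Helper1.normal_of_le_center (Subgroup.zpowers_le.mpr hu)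
  have hRn : R.Normal := Cfsg.Agent.Lib.Helper1.pCore_normal 2
  haveI : (R.map (QuotientGroup.mk' N)).Normal := hRn.map _ (QuotientGroup.mk'_surjective N)
  set D : Subgroup H := (Subgroup.centralizer ((R.map (QuotientGroup.mk' N) : Subgroup (H ⧸ N)) : Set (H ⧸ N))).comap
    (QuotientGroup.mk' N) with hD
  have hDn : D.Normal := inferInstance
  have hmem : ∀ h : H, h ∈ D ↔ ∀ r ∈ R, h * r * h⁻¹ * r⁻¹ ∈ N := by
    intro h
    rw [hD, Subgroup.mem_comap, Subgroup.mem_centralizer_iff]
    constructor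
    · intro h1 r hr
      have h2 := h1 (QuotientGroup.mk' N r) ⟨r, hr, rfl⟩
      rw [← QuotientGroup.eq_one_iff]
      change QuotientGroup.mk' N (h * r * h⁻¹ * r⁻¹) = 1
      simp only [map_mul, map_inv]
      rw [← h2]; group
    · rintro h1 _ ⟨r, hr, rfl⟩
      have h2 : QuotientGroup.mk' N (h * r * h⁻¹ * r⁻¹) = 1 := (QuotientGroup.eq_one_iff _).mpr (h1 r hr)
      simp only [map_mul, map_inv] at h2
      have h3 : QuotientGroup.mk' N h * QuotientGroup.mk' N r =
          (QuotientGroup.mk' N h * QuotientGroup.mk' N r * (QuotientGroup.mk' N h)⁻¹ * (QuotientGroup.mk' N r)⁻¹) *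
            (QuotientGroup.mk' N r * QuotientGroup.mk' N h) := by group
      rw [h3, h2, one_mul]
  have hNcent : ∀ c ∈ N, ∀ g : H, g * c * g⁻¹ = c := by
    intro c hcN g
    have : c ∈ Subgroup.center H := (Subgroup.zpowers_le.mpr hu) hcN
    rw [Subgroup.mem_center_iff] at this
    rw [this g, mul_inv_cancel_right]
  have hDp : IsPGroup 2 D := by
    rintro ⟨h, hh⟩
    obtain ⟨a, m, hm, ham⟩ := Nat.exists_eq_pow_mul_and_not_dvd (orderOf_pos h).ne' 2 (by norm_num)
    have hg : h ^ 2 ^ a ∈ D := D.pow_mem hh _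
    have hgm : (h ^ 2 ^ a) ^ m = 1 := by rw [← pow_mul, ← ham, pow_orderOf_eq_one]
    have hm2 : m.Coprime 2 := ((Nat.Prime.coprime_iff_not_dvd Nat.prime_two).2 hm).symm
    have hq : QuadOn R (h ^ 2 ^ a) := by
      intro r hr
      exact hNcent _ ((hmem _).1 hg r hr) _
    have hgc : h ^ 2 ^ a ∈ R := hc (quadOn_centralizes_of_coprime
      (Cfsg.Agent.Lib.Helper1.pCore_isPGroup 2) hq hgm hm2)
    obtain ⟨j, hj⟩ := (Cfsg.Agent.Lib.Helper1.pCore_isPGroup (G := H) 2) ⟨_, hgc⟩
    have hj' : (h ^ 2 ^ a) ^ 2 ^ j = 1 := congrArg Subtype.val hj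
    have h6 : (h ^ 2 ^ a) ^ (Nat.gcd m (2 ^ j)) = 1 := pow_gcd_eq_one.2 ⟨hgm, hj'⟩
    rw [Nat.Coprime.pow_right j hm2, pow_one] at h6
    exact ⟨a, Subtype.ext h6⟩
  apply Cfsg.Agent.Lib.Helper1.le_pCore hDn hDp
  rw [hmem]
  intro r hr
  rcases hv r hr with h | h
  · rw [h]; exact N.one_mem
  · rw [h]; exact Subgroup.mem_zpowers u

section Four

variable {G : Type*} [Group G]

theorem four_sq {U : Subgroup G} (hU4 : IsKleinFour ↥U) {x : G} (hx : x ∈ U) : x * x = 1 :=
  congrArg Subtype.val (IsKleinFour.mul_self (⟨x, hx⟩ : U))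

theorem four_comm {U : Subgroup G} (hU4 : IsKleinFour ↥U) {x y : G} (hx : x ∈ U) (hy : y ∈ U) :
    x * y = y * x :=
  congrArg Subtype.val ((IsKleinFour.isMulCommutative (G := U)).is_comm.comm ⟨x, hx⟩ ⟨y, hy⟩)

theorem four_cases {U : Subgroup G} (hU4 : IsKleinFour ↥U) {x y w : G} (hx : x ∈ U) (hy : y ∈ U)
    (hw : w ∈ U) (hx1 : x ≠ 1) (hy1 : y ≠ 1) (hxy : x ≠ y) : w = 1 ∨ w = x ∨ w = y ∨ w = x * y := by
  by_cases h1 : w = 1
  · exact Or.inl h1
  by_cases h2 : w = x
  · exact Or.inr (Or.inl h2)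
  by_cases h3 : w = y
  · exact Or.inr (Or.inr (Or.inl h3))
  refine Or.inr (Or.inr (Or.inr ?_))
  have := IsKleinFour.eq_mul_of_ne_all (G := U) (x := ⟨x, hx⟩) (y := ⟨y, hy⟩) (z := ⟨w, hw⟩)
    (fun h => hx1 (congrArg Subtype.val h)) (fun h => hy1 (congrArg Subtype.val h))
    (fun h => hxy (congrArg Subtype.val h)) (fun h => h1 (congrArg Subtype.val h))
    (fun h => h2 (congrArg Subtype.val h)) (fun h => h3 (congrArg Subtype.val h))
  exact congrArg Subtype.val this

/-- in a cyclic group there is at most one involution -/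
theorem eq_one_or_eq_of_isCyclic {C : Type*} [Group C] [Finite C] [IsCyclic C] {z f : C} (hz1 : z ≠ 1)
    (hz : z * z = 1) (hf : f * f = 1) : f = 1 ∨ f = z := by
  classical
  by_contra hcon
  push Not at hcon
  let _ := Fintype.ofFinite C
  have h1 := IsCyclic.card_pow_eq_one_le (α := C) (n := 2) (by norm_num)
  have h2 : ({1, z, f} : Finset C) ⊆ Finset.univ.filter (fun a : C => a ^ 2 = 1) := by
    intro x hx
    simp only [Finset.mem_insert, Finset.mem_singleton] at hx
    simp only [Finset.mem_filter, Finset.mem_univ, true_and]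
    rcases hx with rfl | rfl | rfl
    · simp
    · rw [pow_two, hz]
    · rw [pow_two, hf]
  have h3 : ({1, z, f} : Finset C).card = 3 := by
    rw [Finset.card_insert_of_notMem, Finset.card_insert_of_notMem, Finset.card_singleton]
    · simp only [Finset.mem_singleton]; exact fun h => hcon.2 h.symm
    · simp only [Finset.mem_insert, Finset.mem_singleton, not_or]
      exact ⟨fun h => hz1 h.symm, fun h => hcon.1 h.symm⟩
  have h4 := Finset.card_le_card h2
  omega

/-- The non-central case: `U ⊴ P` a four-group, `Z(P)` cyclic, `u ∈ U` not central. -/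
theorem four_noncentral [Finite G] (P U : Subgroup G) (hU4 : IsKleinFour ↥U) (hUP : U ≤ P)
    (hUn : P ≤ Subgroup.normalizer (U : Set G))
    (hcyc : IsCyclic ↥(P ⊓ Subgroup.centralizer (P : Set G))) (u t z : G) (huU : u ∈ U) (htP : t ∈ P)
    (htu : t * u ≠ u * t) (hzU : z ∈ U) (hz1 : z ≠ 1) (hzP : z ∈ Subgroup.centralizer (P : Set G)) :
    (P ⊓ Subgroup.centralizer {u}).relIndex P = 2 ∧ U ≤ P ⊓ Subgroup.centralizer {u} ∧
    (∀ x ∈ P ⊓ Subgroup.centralizer {u}, ∀ v ∈ U, x * v = v * x) ∧
    ∀ e ∈ P ⊓ Subgroup.centralizer {u}, (∀ x ∈ P ⊓ Subgroup.centralizer {u}, x * e = e * x) → e * e = 1 →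
      e ∈ U := by
  set Pu := P ⊓ Subgroup.centralizer {u} with hPu
  have hzc : ∀ x ∈ P, x * z = z * x := fun x hx => (Subgroup.mem_centralizer_iff.mp hzP x hx)
  have hu1 : u ≠ 1 := by rintro rfl; simp at htu
  have hzu : z ≠ u := by
    rintro rfl
    exact htu (hzc t htP)
  have hconjU : ∀ b ∈ P, ∀ v ∈ U, b * v * b⁻¹ ∈ U := fun b hb v hv =>
    (Subgroup.mem_normalizer_iff.mp (hUn hb) v).mp hv
  have hmemPu : ∀ x, x ∈ Pu ↔ x ∈ P ∧ x * u = u * x := by
    intro x
    rw [hPu, Subgroup.mem_inf, Subgroup.mem_centralizer_singleton_iff]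
  -- the action on `u`
  have hact : ∀ b ∈ P, b * u * b⁻¹ = u ∨ b * u * b⁻¹ = z * u := by
    intro b hb
    rcases four_cases hU4 hzU huU (hconjU b hb u huU) hz1 hu1 hzu with h | h | h | h
    · exfalso; apply hu1
      have : u = b⁻¹ * (b * u * b⁻¹) * b := by group
      rw [this, h]; group
    · exfalso; apply hzu
      have : u = b⁻¹ * (b * u * b⁻¹) * b := by group
      rw [this, h]
      have := hzc b⁻¹ (P.inv_mem hb)
      rw [this]; group
    · exact Or.inl h
    · exact Or.inr h
  have hzz : z * z = 1 := four_sq hU4 hzU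
  have huu : u * u = 1 := four_sq hU4 huU
  have htact : t * u * t⁻¹ = z * u := by
    rcases hact t htP with h | h
    · exfalso; apply htu
      calc t * u = (t * u * t⁻¹) * t := by group
        _ = u * t := by rw [h]
    · exact h
  have hzuu : z * u ≠ u := by
    intro h
    apply hz1
    calc z = (z * u) * u⁻¹ := by group
      _ = 1 := by rw [h]; group
  have hfix : ∀ b, b * u * b⁻¹ = u ↔ b * u = u * b := by
    intro b
    constructor
    · intro h
      calc b * u = (b * u * b⁻¹) * b := by group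
        _ = u * b := by rw [h]
    · intro h
      rw [h]; group
  have hbt : ∀ b ∈ P, (b * t) * u * (b * t)⁻¹ = z * (b * u * b⁻¹) := by
    intro b hb
    calc (b * t) * u * (b * t)⁻¹ = b * (t * u * t⁻¹) * b⁻¹ := by group
      _ = b * (z * u) * b⁻¹ := by rw [htact]
      _ = (b * z) * u * b⁻¹ := by group
      _ = z * (b * u * b⁻¹) := by rw [hzc b hb]; group
  have hdich : ∀ b ∈ P, Xor (b * t ∈ Pu) (b ∈ Pu) := by
    intro b hb
    rcases hact b hb with h | h
    · right
      refine ⟨(hmemPu b).2 ⟨hb, (hfix b).1 h⟩, ?_⟩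
      intro h1
      have h2 := (hfix _).2 ((hmemPu _).1 h1).2
      rw [hbt b hb, h] at h2
      exact hzuu h2
    · left
      refine ⟨(hmemPu _).2 ⟨P.mul_mem hb htP, (hfix _).1 ?_⟩, ?_⟩
      · rw [hbt b hb, h, ← mul_assoc, hzz, one_mul]
      · intro h1
        have h2 := (hfix _).2 ((hmemPu _).1 h1).2
        rw [h] at h2
        exact hzuu h2
  have hidx : Pu.relIndex P = 2 := by
    rw [Subgroup.relIndex, Subgroup.index_eq_two_iff]
    refine ⟨⟨t, htP⟩, ?_⟩
    rintro ⟨b, hb⟩
    exact hdich b hb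
  have hUPu : U ≤ Pu := fun v hv => (hmemPu v).2 ⟨hUP hv, four_comm hU4 hv huU⟩
  have hcentU : ∀ x ∈ Pu, ∀ v ∈ U, x * v = v * x := by
    intro x hx v hv
    obtain ⟨hxP, hxu⟩ := (hmemPu x).1 hx
    rcases four_cases hU4 hzU huU hv hz1 hu1 hzu with rfl | rfl | rfl | rfl
    · simp
    · exact hzc x hxP
    · exact hxu
    · rw [← mul_assoc, hzc x hxP, mul_assoc, hxu, mul_assoc]
  refine ⟨hidx, hUPu, hcentU, ?_⟩
  -- conjugation by `t` preserves `Pu`
  have htPu : ∀ x ∈ Pu, t * x * t⁻¹ ∈ Pu ∧ t⁻¹ * x * t ∈ Pu := by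
    intro x hx
    have hxP := ((hmemPu x).1 hx).1
    constructor
    · refine (hmemPu _).2 ⟨P.mul_mem (P.mul_mem htP hxP) (P.inv_mem htP), ?_⟩
      have h1 : t⁻¹ * u * t ∈ U := by simpa using hconjU t⁻¹ (P.inv_mem htP) u huU
      have h2 := hcentU x hx _ h1
      calc t * x * t⁻¹ * u = t * (x * (t⁻¹ * u * t)) * t⁻¹ := by group
        _ = t * ((t⁻¹ * u * t) * x) * t⁻¹ := by rw [h2]
        _ = u * (t * x * t⁻¹) := by group
    · refine (hmemPu _).2 ⟨P.mul_mem (P.mul_mem (P.inv_mem htP) hxP) htP, ?_⟩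
      have h1 : t * u * t⁻¹ ∈ U := hconjU t htP u huU
      have h2 := hcentU x hx _ h1
      calc t⁻¹ * x * t * u = t⁻¹ * (x * (t * u * t⁻¹)) * t := by group
        _ = t⁻¹ * ((t * u * t⁻¹) * x) * t := by rw [h2]
        _ = u * (t⁻¹ * x * t) := by group
  -- an element central in `Pu` and commuting with `t` is central in `P`
  have hZ : ∀ e ∈ Pu, (∀ x ∈ Pu, x * e = e * x) → t * e = e * t → e * e = 1 → e = 1 ∨ e = z := by
    intro e he hec het hee
    have heP := ((hmemPu e).1 he).1
    have hecP : e ∈ Subgroup.centralizer (P : Set G) := by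
      rw [Subgroup.mem_centralizer_iff]
      intro b hb
      rcases hdich b hb with ⟨h, -⟩ | ⟨h, -⟩
      · have h1 := hec _ h
        have h2 : b * e = (b * t * e) * t⁻¹ * (t * e⁻¹ * t⁻¹ * e) := by group
        have h3 : t * e⁻¹ * t⁻¹ * e = 1 := by
          have : t * e⁻¹ = e⁻¹ * t := by
            calc t * e⁻¹ = e⁻¹ * (e * t) * e⁻¹ := by group
              _ = e⁻¹ * (t * e) * e⁻¹ := by rw [het]
              _ = e⁻¹ * t := by group
          rw [this]; group
        rw [h2, h3, h1]; group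
      · exact hec b h
    have h1 := eq_one_or_eq_of_isCyclic (C := ↥(P ⊓ Subgroup.centralizer (P : Set G)))
      (z := ⟨z, hUP hzU, hzP⟩) (f := ⟨e, heP, hecP⟩) (fun h => hz1 (congrArg Subtype.val h))
      (Subtype.ext hzz) (Subtype.ext hee)
    rcases h1 with h | h
    · exact Or.inl (congrArg Subtype.val h)
    · exact Or.inr (congrArg Subtype.val h)
  have ht2 : t * t ∈ Pu := by
    refine (hmemPu _).2 ⟨P.mul_mem htP htP, (hfix _).1 ?_⟩
    rw [hbt t htP, htact, ← mul_assoc, hzz, one_mul]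
  -- key: for `e` central in `Pu` of exponent two, `e * (t e t⁻¹)` is `1` or `z`
  intro e he hec hee
  set e' := t * e * t⁻¹ with he'
  have he'Pu : e' ∈ Pu := (htPu e he).1
  have he'c : ∀ x ∈ Pu, x * e' = e' * x := by
    intro x hx
    have h1 := hec _ (htPu x hx).2
    calc x * e' = t * ((t⁻¹ * x * t) * e) * t⁻¹ := by rw [he']; group
      _ = t * (e * (t⁻¹ * x * t)) * t⁻¹ := by rw [h1]
      _ = e' * x := by rw [he']; group
  have he'e' : e' * e' = 1 := by
    calc e' * e' = t * (e * e) * t⁻¹ := by rw [he']; group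
      _ = 1 := by rw [hee]; group
  have hee' : e * e' = e' * e := (hec e' he'Pu).symm
  have hte' : t * e' * t⁻¹ = e := by
    have h1 := hec _ ht2
    calc t * e' * t⁻¹ = (t * t * e) * (t * t)⁻¹ := by rw [he']; group
      _ = e * (t * t) * (t * t)⁻¹ := by rw [h1]
      _ = e := by group
  have hf := hZ (e * e') (Pu.mul_mem he he'Pu) (by
      intro x hx
      calc x * (e * e') = (x * e) * e' := by group
        _ = e * (x * e') := by rw [hec x hx]; group
        _ = e * e' * x := by rw [he'c x hx]; group) (by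
      calc t * (e * e') = (t * e * t⁻¹) * (t * e' * t⁻¹) * t := by group
        _ = e' * e * t := by rw [hte']
        _ = e * e' * t := by rw [hee']) (by
      calc e * e' * (e * e') = e * (e' * e) * e' := by group
        _ = e * (e * e') * e' := by rw [hee']
        _ = (e * e) * (e' * e') := by group
        _ = 1 := by rw [hee, he'e', one_mul])
  rcases hf with hf | hf
  · -- `e' = e`
    have h1 : e' = e := by
      calc e' = (e * e) * e' := by rw [hee, one_mul]
        _ = e * (e * e') := by group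
        _ = e := by rw [hf, mul_one]
    have h2 : t * e = e * t := by
      calc t * e = (t * e * t⁻¹) * t := by group
        _ = e * t := by rw [← he', h1]
    rcases hZ e he hec h2 hee with h | h
    · rw [h]; exact U.one_mem
    · rw [h]; exact hzU
  · -- replace `e` by `e * u`
    have huPu : u ∈ Pu := hUPu huU
    have heu : e * u = u * e := (hec u huPu).symm
    have h1 : e' = z * e := by
      calc e' = (e * e) * e' := by rw [hee, one_mul]
        _ = e * (e * e') := by group
        _ = e * z := by rw [hf]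
        _ = z * e := (hec z (hUPu hzU)).symm ▸ rfl
    have h2 : t * (e * u) = (e * u) * t := by
      calc t * (e * u) = (t * e * t⁻¹) * (t * u * t⁻¹) * t := by group
        _ = (z * e) * (z * u) * t := by rw [← he', h1, htact]
        _ = z * (e * z) * u * t := by group
        _ = z * (z * e) * u * t := by rw [← hec z (hUPu hzU)]
        _ = (z * z) * (e * u) * t := by group
        _ = (e * u) * t := by rw [hzz, one_mul]
    have h3 := hZ (e * u) (Pu.mul_mem he huPu) (by
      intro x hx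
      rw [← mul_assoc, hec x hx, mul_assoc, hcentU x hx u huU, mul_assoc]) h2 (by
      calc e * u * (e * u) = e * (u * e) * u := by group
        _ = e * (e * u) * u := by rw [heu]
        _ = (e * e) * (u * u) := by group
        _ = 1 := by rw [hee, huu, one_mul])
    have h4 : e = (e * u) * u := by rw [mul_assoc, huu, mul_one]
    rw [h4]
    rcases h3 with h | h
    · rw [h, one_mul]; exact huU
    · rw [h]; exact U.mul_mem hzU huU

theorem card_mul_relIndex' {H K : Subgroup G} (h : H ≤ K) : Nat.card H * H.relIndex K = Nat.card K := by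
  rw [← Subgroup.relIndex_bot_left, ← Subgroup.relIndex_bot_left (H := K)]
  exact Subgroup.relIndex_mul_relIndex ⊥ H K bot_le h

/-- **Main theorem.** -/
theorem four_centralizes_odd [Finite G]
    (h2 : ∀ T : Subgroup G, IsPGroup 2 T → T ≠ ⊥ →
      IsOfCharacteristicTwo ↥(Subgroup.normalizer (T : Set G)))
    (P : Sylow 2 G) (U : Subgroup G) (hUP : U ≤ (P : Subgroup G))
    (hUn : (P : Subgroup G) ≤ Subgroup.normalizer (U : Set G)) (hU4 : IsKleinFour ↥U)
    (hUZ : ¬ IsCyclic ↥((P : Subgroup G) ⊓ Subgroup.centralizer ((P : Subgroup G) : Set G)) →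
      U ≤ Subgroup.centralizer ((P : Subgroup G) : Set G))
    (K : Subgroup G) (hK : Odd (Nat.card K)) (hUK : U ≤ Subgroup.normalizer (K : Set G)) :
    U ≤ Subgroup.centralizer (K : Set G) := by
  haveI : Fact (2 : ℕ).Prime := ⟨Nat.prime_two⟩
  rw [Subgroup.le_centralizer_iff]
  apply Cfsg.Agent.Lib.Helper22.le_of_forall_centralizer_le (p := 2) U K _
    (fun x hx y hy => four_comm hU4 hx hy) (fun x hx => by rw [pow_two]; exact four_sq hU4 hx)
    (by rw [hU4.card_four]; norm_num)
    (fun h => (Nat.not_even_iff_odd.mpr hK) (even_iff_two_dvd.mpr h)) hUK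
  intro u huU hu1
  have huu : u * u = 1 := four_sq hU4 huU
  set Hs : Subgroup G := Subgroup.normalizer ((Subgroup.zpowers u : Subgroup G) : Set G) with hHs
  have hF1 : ∀ x, x * u = u * x → x ∈ Hs := by
    intro x hx
    apply Subgroup.centralizer_le_normalizer
    rw [Subgroup.mem_centralizer_iff]
    rintro _ ⟨k, rfl⟩
    exact ((Commute.zpow_right (show Commute x u from hx) k).eq).symm
  have hzp : ∀ y ∈ Subgroup.zpowers u, y = 1 ∨ y = u := by
    rintro _ ⟨k, rfl⟩
    have hu2 : u ^ (2 : ℤ) = 1 := by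
      have : u ^ (2 : ℤ) = u * u := by rw [zpow_two]
      rw [this, huu]
    rcases Int.even_or_odd' k with ⟨m, rfl | rfl⟩
    · left; change u ^ (2 * m) = 1; rw [zpow_mul, hu2, one_zpow]
    · right; change u ^ (2 * m + 1) = u; rw [zpow_add, zpow_mul, hu2, one_zpow, one_mul, zpow_one]
  have hF2 : ∀ x ∈ Hs, x * u = u * x := by
    intro x hx
    have h1 : x * u * x⁻¹ ∈ Subgroup.zpowers u :=
      (Subgroup.mem_normalizer_iff.mp hx u).mp (Subgroup.mem_zpowers u)
    rcases hzp _ h1 with h | h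
    · exfalso; apply hu1
      have : u = x⁻¹ * (x * u * x⁻¹) * x := by group
      rw [this, h]; group
    · calc x * u = (x * u * x⁻¹) * x := by group
        _ = u * x := by rw [h]
  have hzpp : IsPGroup 2 (Subgroup.zpowers u) := by
    apply Cfsg.Agent.Lib.Helper22.isPGroup_of_pow_eq_one
    intro y hy
    rcases hzp y hy with rfl | rfl
    · simp
    · rw [pow_two, huu]
  have hzpne : Subgroup.zpowers u ≠ ⊥ := by
    intro h
    exact hu1 (Subgroup.zpowers_eq_bot.mp h)
  have hchar : Subgroup.centralizer (pCore 2 Hs : Set Hs) ≤ pCore 2 Hs := h2 _ hzpp hzpne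
  set RG : Subgroup G := (pCore 2 Hs).map Hs.subtype with hRG
  have hRGp : IsPGroup 2 RG := (Cfsg.Agent.Lib.Helper1.pCore_isPGroup 2).map _
  have hRGH : RG ≤ Hs := Subgroup.map_subtype_le _
  have hHsN : Hs ≤ Subgroup.normalizer (RG : Set G) := by
    rw [← Subgroup.normal_subgroupOf_iff_le_normalizer hRGH]
    have : RG.subgroupOf Hs = pCore 2 Hs := by
      rw [hRG]
      exact Subgroup.comap_map_eq_self_of_injective Hs.subtype_injective _
    rw [this]
    exact Cfsg.Agent.Lib.Helper1.pCore_normal 2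
  set Pu : Subgroup G := (P : Subgroup G) ⊓ Subgroup.centralizer {u} with hPu
  have hPuH : Pu ≤ Hs := by
    intro x hx
    exact hF1 x (Subgroup.mem_centralizer_singleton_iff.mp hx.2)
  have hTp : IsPGroup 2 (Pu ⊔ RG : Subgroup G) :=
    IsPGroup.to_sup_of_normal_right' (P.2.to_le inf_le_left) hRGp (hPuH.trans hHsN)
  have hstar : ∀ r ∈ RG, ∀ v ∈ U, r * v * r⁻¹ ∈ U := by
    by_cases hcen : ∀ x ∈ (P : Subgroup G), x * u = u * x
    · have hPPu : (P : Subgroup G) ≤ Pu := fun x hx =>
        ⟨hx, Subgroup.mem_centralizer_singleton_iff.mpr (hcen x hx)⟩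
      have hT : (Pu ⊔ RG : Subgroup G) = P := P.is_maximal' hTp (hPPu.trans le_sup_left)
      intro r hr v hv
      have hrP : r ∈ (P : Subgroup G) := by
        rw [← hT]; exact (le_sup_right : RG ≤ Pu ⊔ RG) hr
      exact (Subgroup.mem_normalizer_iff.mp (hUn hrP) v).mp hv
    · push Not at hcen
      obtain ⟨t, htP, htu⟩ := hcen
      have hcyc : IsCyclic ↥((P : Subgroup G) ⊓ Subgroup.centralizer ((P : Subgroup G) : Set G)) := by
        by_contra hnc
        exact htu (Subgroup.mem_centralizer_iff.mp (hUZ hnc huU) t htP)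
      -- a central involution in `U`
      obtain ⟨z, hzU, hz1, hzP⟩ : ∃ z ∈ U, z ≠ 1 ∧ z ∈ Subgroup.centralizer ((P : Subgroup G) : Set G) := by
        haveI : (U.subgroupOf (P : Subgroup G)).Normal :=
          (Subgroup.normal_subgroupOf_iff_le_normalizer hUP).mpr hUn
        haveI : Group.IsNilpotent ↥(P : Subgroup G) := P.2.isNilpotent
        have hne : U.subgroupOf (P : Subgroup G) ≠ ⊥ := by
          intro h
          have : (⟨u, hUP huU⟩ : (P : Subgroup G)) ∈ U.subgroupOf (P : Subgroup G) := huU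
          rw [h, Subgroup.mem_bot] at this
          exact hu1 (congrArg Subtype.val this)
        have h1 := Cfsg.Agent.Lib.Helper1.normal_inf_center_ne_bot hne
        obtain ⟨⟨z, hz⟩, hz1⟩ := (Subgroup.ne_bot_iff_exists_ne_one).mp h1
        refine ⟨(z : G), hz.1, ?_, ?_⟩
        · intro h
          apply hz1
          exact Subtype.ext (Subtype.ext h)
        · rw [Subgroup.mem_centralizer_iff]
          intro x hx
          have := (Subgroup.mem_center_iff.mp hz.2) ⟨x, hx⟩
          exact congrArg Subtype.val this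
      obtain ⟨hidx, hUPu, hcentU, hΩ⟩ := four_noncentral (P : Subgroup G) U hU4 hUP hUn hcyc u t z huU htP
        htu hzU hz1 hzP
      obtain ⟨Q, hTQ⟩ := hTp.exists_le_sylow
      have hPuQ : Pu ≤ (Q : Subgroup G) := le_sup_left.trans hTQ
      have hcard : Nat.card (Q : Subgroup G) = Nat.card (P : Subgroup G) := by
        rw [Q.card_eq_multiplicity, P.card_eq_multiplicity]
      have hidxQ : Pu.relIndex (Q : Subgroup G) = 2 := by
        have e1 := card_mul_relIndex' hPuQ
        have e2 := card_mul_relIndex' (inf_le_left : Pu ≤ (P : Subgroup G))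
        rw [hidx] at e2
        rw [hcard, ← e2] at e1
        exact Nat.eq_of_mul_eq_mul_left Nat.card_pos e1
      have hQN : (Q : Subgroup G) ≤ Subgroup.normalizer (Pu : Set G) := by
        rw [← Subgroup.normal_subgroupOf_iff_le_normalizer hPuQ]
        exact Subgroup.normal_of_index_eq_two hidxQ
      intro r hr v hv
      have hrN : r ∈ Subgroup.normalizer (Pu : Set G) := hQN (hTQ ((le_sup_right : RG ≤ Pu ⊔ RG) hr))
      apply hΩ
      · exact (Subgroup.mem_normalizer_iff.mp hrN v).mp (hUPu hv)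
      · intro x hx
        have h1 : r⁻¹ * x * r ∈ Pu := (Subgroup.mem_normalizer_iff''.mp hrN x).mp hx
        have h3 := hcentU _ h1 v hv
        calc x * (r * v * r⁻¹) = r * ((r⁻¹ * x * r) * v) * r⁻¹ := by group
          _ = r * (v * (r⁻¹ * x * r)) * r⁻¹ := by rw [h3]
          _ = r * v * r⁻¹ * x := by group
      · calc r * v * r⁻¹ * (r * v * r⁻¹) = r * (v * v) * r⁻¹ := by group
          _ = 1 := by rw [four_sq hU4 hv]; group
  -- `U ≤ O_2(C(u))`
  have hUH : U ≤ Hs := fun v hv => hF1 v (four_comm hU4 hv huU)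
  have hUR : U ≤ RG := by
    intro v hv
    refine ⟨⟨v, hUH hv⟩, ?_, rfl⟩
    apply mem_pCore_two_of_commutator_central hchar ⟨u, hUH huU⟩
    · rw [Subgroup.mem_center_iff]
      intro g
      exact Subtype.ext (hF2 g g.2)
    · intro r hr
      have hrRG : (r : G) ∈ RG := ⟨r, hr, rfl⟩
      have hw := hstar r hrRG v hv
      have hru : (r : G) * u = u * r := hF2 r r.2
      have key : v * (r : G) * v⁻¹ * (r : G)⁻¹ = 1 ∨ v * (r : G) * v⁻¹ * (r : G)⁻¹ = u := by
        have e0 : v * (r : G) * v⁻¹ * (r : G)⁻¹ = v * ((r : G) * v * (r : G)⁻¹)⁻¹ := by group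
        rw [e0]
        by_cases hv1 : v = 1
        · left; rw [hv1]; group
        by_cases hvu : v = u
        · left
          rw [hvu, hru]; group
        rcases four_cases hU4 huU hv hw hu1 hv1 (Ne.symm hvu) with h | h | h | h
        · exfalso; apply hv1
          have : v = (r : G)⁻¹ * ((r : G) * v * (r : G)⁻¹) * r := by group
          rw [this, h]; group
        · exfalso; apply hvu
          have : v = (r : G)⁻¹ * ((r : G) * v * (r : G)⁻¹) * r := by group
          rw [this, h, mul_assoc, ← hru]; group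
        · left; rw [h]; group
        · right
          rw [h]
          have : u⁻¹ = u := inv_eq_of_mul_eq_one_left huu
          calc v * (u * v)⁻¹ = u⁻¹ := by group
            _ = u := this
      rcases key with h | h
      · left; exact Subtype.ext h
      · right; exact Subtype.ext h
  -- conclusion
  rintro k ⟨hkK, hku⟩
  have hkH : k ∈ Hs := hF1 k (Subgroup.mem_centralizer_singleton_iff.mp hku)
  rw [Subgroup.mem_centralizer_iff]
  intro v hv
  have h1 : k * v * k⁻¹ ∈ RG := (Subgroup.mem_normalizer_iff.mp (hHsN hkH) v).mp (hUR hv)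
  have h3 : k * v * k⁻¹ * v⁻¹ ∈ RG := RG.mul_mem h1 (RG.inv_mem (hUR hv))
  have h4 : k * v * k⁻¹ * v⁻¹ ∈ K := by
    have : k * v * k⁻¹ * v⁻¹ = k * (v * k⁻¹ * v⁻¹) := by group
    rw [this]
    exact K.mul_mem hkK ((Subgroup.mem_normalizer_iff.mp (hUK hv) _).mp (K.inv_mem hkK))
  have hdisj : Disjoint K RG := by
    apply Subgroup.disjoint_of_coprime_natCard
    obtain ⟨n, hn⟩ := IsPGroup.iff_card.1 hRGp
    rw [hn]
    exact Nat.Coprime.pow_right n (Nat.coprime_two_right.mpr hK)
  have h5 : k * v * k⁻¹ * v⁻¹ = 1 := by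
    have := (Subgroup.disjoint_def.mp hdisj) h4 h3
    exact this
  calc v * k = (k * v * k⁻¹ * v⁻¹)⁻¹ * (k * v) := by group
    _ = k * v := by rw [h5]; simp

end Four

end Cfsg.Agent.Lib.Helper2
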