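import Mathlib
import Cfsg.Agent.Lib.Helper84.FusionAlperin3
import Cfsg.Agent.Lib.Helper84.FusionFocal
import Cfsg.Agent.Lib.Helper84.StronglyEmbedded2
import Cfsg.Agent.Lib.Helper85.FusBasic

set_option autoImplicit false

/-! Maps of a fusion system that are trivial modulo a subgroup `D` (helper2). -/

namespace Cfsg.Agent.Lib.Helper2

open Cfsg Cfsg.FusionSystem Cfsg.Agent.Lib.Helper84

variable {Ω : Type*} [Group Ω] {S : Subgroup Ω}

/-- all maps of `F` are trivial modulo `D` -/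
def TrivMod (F : FusionSystem S) (D : Subgroup Ω) : Prop :=
  ∀ (P : Subgroup Ω) (φ : P →* Ω), φ ∈ F.Hom P → ∀ x : P, (x : Ω)⁻¹ * φ x ∈ D

/-- all maps of `N_F(T)` are trivial modulo `D` -/
def NT (F : FusionSystem S) (D T : Subgroup Ω) : Prop :=
  ∀ (P : Subgroup Ω) (φ : P →* Ω), φ ∈ F.Hom P → T ≤ P → P ≤ Subgroup.normalizer (T : Set Ω) →
    (∀ x : P, (x : Ω) ∈ T → φ x ∈ T) → ∀ x : P, (x : Ω)⁻¹ * φ x ∈ D

theorem trivMod_iff (F : FusionSystem S) (D : Subgroup Ω) : TrivMod F D ↔ F.focalSubgroup ≤ D := by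
  constructor
  · intro h
    unfold FusionSystem.focalSubgroup
    rw [Subgroup.closure_le]
    rintro _ ⟨P, φ, x, hφ, rfl⟩
    exact h P φ hφ x
  · intro h P φ hφ x
    exact h (Subgroup.subset_closure ⟨P, φ, x, hφ, rfl⟩)

theorem TrivMod.nt {F : FusionSystem S} {D : Subgroup Ω} (h : TrivMod F D) (T : Subgroup Ω) :
    NT F D T := fun P φ hφ _ _ _ x => h P φ hφ x

theorem commutator_le_of_top {F : FusionSystem S} {D : Subgroup Ω}
    (h : ∀ φ ∈ F.Hom S, ∀ x : S, (x : Ω)⁻¹ * φ x ∈ D) : ⁅S, S⁆ ≤ D := by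
  rw [Subgroup.commutator_le]
  intro a ha b hb
  have := h (conjHom S b) (F.conj_mem le_rfl hb) ⟨a⁻¹, S.inv_mem ha⟩
  rw [conjHom_apply] at this
  rw [commutatorElement_def]
  simpa [mul_assoc] using this

/-- Alperin's theorem, truncated: maps with large source are trivial modulo `D`. -/
theorem hom_triv_of_large [Finite S] {p : ℕ} [Fact p.Prime] (hS : IsPGroup p S)
    (F : FusionSystem S) (hF : F.IsSaturated p) (D : Subgroup Ω) (m : ℕ)
    (htop : ∀ φ ∈ F.Hom S, ∀ x : S, (x : Ω)⁻¹ * φ x ∈ D)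
    (hess : ∀ P : Subgroup Ω, F.IsEssential p P → m ≤ Nat.card P →
      ∀ φ ∈ F.Hom P, (∀ x : P, φ x ∈ P) → ∀ x : P, (x : Ω)⁻¹ * φ x ∈ D) :
    ∀ (P : Subgroup Ω) (φ : P →* Ω), φ ∈ F.Hom P → m ≤ Nat.card P →
      ∀ x : P, (x : Ω)⁻¹ * φ x ∈ D := by
  have hD : ⁅S, S⁆ ≤ D := commutator_le_of_top htop
  have hle : F ≤ truncSystem F (focSystem F D hD) (m - 1) := by
    apply alperin hS F hF
    intro P hP α hα
    have hPS : P ≤ S := by
      rcases hP with rfl | hP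
      · exact le_rfl
      · exact hP.1.1
    rw [mem_autGroup_iff _ hPS]
    have hαm := (mem_autGroup_iff F hPS α).1 hα
    refine ⟨hαm, ?_⟩
    by_cases hc : Nat.card P ≤ m - 1
    · exact Or.inl hc
    · right
      refine ⟨hαm, ?_⟩
      rcases hP with rfl | hP
      · exact htop _ hαm
      · exact hess P hP (by omega) _ hαm (fun x => (α x).2)
  intro P φ hφ hm x
  obtain ⟨-, h | h⟩ := hle P hφ
  · have : Finite P := finite_of_le (F.le_of_mem hφ).1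
    have : 0 < Nat.card P := Nat.card_pos
    omega
  · exact h.2 x

/-- a map of `F` sending a finite subgroup `U` into itself is onto `U` -/
theorem exists_preimage_of_maps_into {P U : Subgroup Ω} [Finite U] (hUP : U ≤ P) (χ : P →* Ω)
    (hinj : Function.Injective χ) (hχ : ∀ x : P, (x : Ω) ∈ U → χ x ∈ U) (u : Ω) (hu : u ∈ U) :
    ∃ x : P, (x : Ω) ∈ U ∧ χ x = u := by
  have hinj' : Function.Injective (fun q : U => (⟨χ ⟨q, hUP q.2⟩, hχ _ q.2⟩ : U)) := by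
    intro a b hab
    have h1 : χ ⟨a, hUP a.2⟩ = χ ⟨b, hUP b.2⟩ := congrArg (fun q : U => (q : Ω)) hab
    have h2 := hinj h1
    exact Subtype.ext (congrArg (fun q : P => (q : Ω)) h2)
  obtain ⟨q, hq⟩ := (Finite.injective_iff_surjective.1 hinj') ⟨u, hu⟩
  exact ⟨⟨q, hUP q.2⟩, q.2, congrArg Subtype.val hq⟩

/-- the image of a map normalizing `U` normalizes `U` -/
theorem map_mem_normalizer {P U : Subgroup Ω} [Finite U] (hUP : U ≤ P)
    (hPN : P ≤ Subgroup.normalizer (U : Set Ω)) (χ : P →* Ω)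
    (hinj : Function.Injective χ) (hχ : ∀ x : P, (x : Ω) ∈ U → χ x ∈ U) (x : P) :
    χ x ∈ Subgroup.normalizer (U : Set Ω) := by
  apply mem_normalizer_of_finite
  intro u hu
  obtain ⟨y, hy, rfl⟩ := exists_preimage_of_maps_into hUP χ hinj hχ u hu
  rw [← map_inv, ← map_mul, ← map_mul]
  apply hχ
  exact conj_mem_of_mem_normalizer (hPN x.2) hy

/-- Transport of `NT` along a map defined on `N_S(U)` that is trivial modulo `D`. -/
theorem NT.transport [Finite S] {F : FusionSystem S} {D U U' : Subgroup Ω} (hU : U ≤ S)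
    {ψ : ↥(normalizerIn S U) →* Ω} (hψ : ψ ∈ F.Hom (normalizerIn S U))
    (hψN : ∀ x, ψ x ∈ normalizerIn S U')
    (hψU : (U.subgroupOf (normalizerIn S U)).map ψ = U')
    (hψD : ∀ x : ↥(normalizerIn S U), (x : Ω)⁻¹ * ψ x ∈ D) (h : NT F D U') : NT F D U := by
  intro P χ hχ hUP hPN hχU x
  have hfinU : Finite U := finite_of_le hU
  have hPS : P ≤ S := (F.le_of_mem hχ).1
  have hPN' : P ≤ normalizerIn S U := fun y hy => ⟨hPS hy, hPN hy⟩
  have hχN : ∀ y : P, χ y ∈ normalizerIn S U := fun y =>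
    ⟨(F.le_of_mem hχ).2 y, map_mem_normalizer hUP hPN χ (F.injective_of_mem hχ) hχU y⟩
  -- `ψ` restricted to `P`
  have hψP : ψ.comp (Subgroup.inclusion hPN') ∈ F.Hom P := restrict_mem F hψ hPN'
  obtain ⟨ρ, hρ, hρ1, hρ2, -⟩ := Cfsg.Agent.Lib.Helper85.inv_mem' F hψP rfl
  have hρP : ∀ y, ρ y ∈ P := by
    intro y
    exact hρ2.le ⟨y, rfl⟩
  have h1 := F.comp_mem hρ hχ hρP
  have h2 := F.comp_mem h1 hψ (fun y => hχN _)
  have key := h _ _ h2 ?_ ?_ ?_ ⟨ψ ⟨x, hPN' x.2⟩, ⟨x, rfl⟩⟩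
  · have e1 : ρ ⟨ψ ⟨x, hPN' x.2⟩, ⟨x, rfl⟩⟩ = x := hρ1 x ⟨x, rfl⟩
    have e2 : (ψ.comp ((χ.comp (ρ.codRestrict P hρP)).codRestrict (normalizerIn S U)
        (fun y => hχN _))) ⟨ψ ⟨x, hPN' x.2⟩, ⟨x, rfl⟩⟩ = ψ ⟨χ x, hχN x⟩ := by
      show ψ ⟨χ ⟨ρ ⟨ψ ⟨x, hPN' x.2⟩, ⟨x, rfl⟩⟩, _⟩, _⟩ = _
      congr 2
      exact congrArg χ (Subtype.ext e1)
    rw [e2] at key
    have k1 := hψD ⟨x, hPN' x.2⟩
    have k2 := hψD ⟨χ x, hχN x⟩
    have k3 := D.mul_mem (D.mul_mem k1 key) (D.inv_mem k2)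
    simpa [mul_assoc] using k3
  · -- `U' ≤ ψ(P)`
    intro u hu
    rw [← hψU] at hu
    obtain ⟨y, hy, rfl⟩ := hu
    exact ⟨⟨y, hUP hy⟩, rfl⟩
  · rintro _ ⟨y, rfl⟩
    exact (hψN _).2
  · rintro ⟨_, y, rfl⟩ hy
    have hyU : (y : Ω) ∈ U := by
      rw [← hψU] at hy
      obtain ⟨z, hz, hzy⟩ := hy
      have := F.injective_of_mem hψ hzy
      have h3 : (z : Ω) = y := congrArg Subtype.val this
      rw [← h3]
      exact hz
    have e1 : ρ ⟨(ψ.comp (Subgroup.inclusion hPN')) y, ⟨y, rfl⟩⟩ = y := hρ1 y ⟨y, rfl⟩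
    have e2 : (ψ.comp ((χ.comp (ρ.codRestrict P hρP)).codRestrict (normalizerIn S U)
        (fun y => hχN _))) ⟨(ψ.comp (Subgroup.inclusion hPN')) y, ⟨y, rfl⟩⟩ = ψ ⟨χ y, hχN y⟩ := by
      show ψ ⟨χ ⟨ρ ⟨(ψ.comp (Subgroup.inclusion hPN')) y, ⟨y, rfl⟩⟩, _⟩, _⟩ = _
      congr 2
      exact congrArg χ (Subtype.ext e1)
    rw [e2, ← hψU]
    exact ⟨⟨χ y, hχN y⟩, hχU y hyU, rfl⟩

end Cfsg.Agent.Lib.Helper2
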