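import Mathlib
import Cfsg.Agent.Lib.Helper88.FusTransfer
import Cfsg.Agent.Lib.Helper84.FusionKNorm4
import Cfsg.Agent.Lib.Helper84.FusionKSystem

set_option autoImplicit false

/-! Transfer in `S C_F(Q)` (helper2). -/

namespace Cfsg.Agent.Lib.Helper2

open Cfsg Cfsg.FusionSystem Cfsg.Agent.Lib.Helper84 Cfsg.Agent.Lib.Helper88 MulAction
open scoped commutatorElement

variable {Ω : Type*} [Group Ω] {S : Subgroup Ω}

/-- the transfer of an element all of whose fusion is trivial modulo `S'` -/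
theorem fusTransfer_weak {F : FusionSystem S} {X : Type*} [MulAction (S × S) X]
    [Finite S] [Finite X] (h : IsFBiset F X) (x₀ : X) (z : S)
    (hz : ∀ (k : ℕ) (Q : Subgroup Ω) (θ : Q →* Ω), θ ∈ F.Hom Q → ∀ q : Q, θ q = (z : Ω) ^ k →
      ∀ hq : (q : Ω) ∈ S, Abelianization.of (⟨q, hq⟩ : S) = Abelianization.of (z ^ k)) :
    fusTransfer h x₀ z = (Abelianization.of z) ^ (baseSub S x₀).index := by
  apply transfer_eq_pow_of
  intro k g₀ hk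
  show Abelianization.of (baseHom h x₀ _) = _
  rw [← map_pow Abelianization.of z k]
  obtain ⟨b, hb⟩ := hk
  have hb' : (parkι S X (z ^ k) : Equiv.Perm X) ((g₀ : Equiv.Perm X) x₀) =
      ((1 : S), b) • (g₀ : Equiv.Perm X) x₀ := by
    rw [← g₀.2, ← hb, map_pow]
    show _ = (g₀ : Equiv.Perm X) ((g₀ : Equiv.Perm X)⁻¹ _)
    rw [Equiv.Perm.inv_def, Equiv.apply_symm_apply]
  rw [parkι_apply] at hb'
  obtain ⟨Q, θ, hθ, hQ⟩ := h.stab ((g₀ : Equiv.Perm X) x₀)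
  have h1 : ((z ^ k, b⁻¹) : S × S) ∈ gr S Q θ := by
    rw [← hQ, mem_stabilizer_iff]
    have : ((z ^ k, b⁻¹) : S × S) = ((1 : S), b⁻¹) * (z ^ k, (1 : S)) := by simp
    rw [this, mul_smul, hb', ← mul_smul]
    simp only [Prod.mk_mul_mk, mul_one, inv_mul_cancel]
    exact one_smul (S × S) _
  obtain ⟨h2, h3⟩ := h1
  have h4 := hz k Q θ hθ ⟨_, h2⟩ h3 (b⁻¹).2
  have h5 : baseHom h x₀ ⟨g₀⁻¹ * parkι S X z ^ k * g₀, ⟨b, hb⟩⟩ = b⁻¹ := by
    apply baseHom_eq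
    rw [inv_inv]
    exact hb
  rw [h5]
  exact h4

/-- If the fusion of `E` on elements of `Q` is induced by `S`, then `foc(E) ∩ Q ≤ S'`. -/
theorem focal_inf_le_commutator [Finite S] (p : ℕ) [Fact p.Prime] (hS : IsPGroup p S)
    (F : FusionSystem S) (hF : F.IsSaturated p) (Q : Subgroup Ω)
    (hQ : ∀ (P : Subgroup Ω) (θ : P →* Ω), θ ∈ F.Hom P → ∀ q : P, θ q ∈ Q →
      ∃ s ∈ S, θ q = s * (q : Ω) * s⁻¹) :
    F.focalSubgroup ⊓ Q ≤ ⁅(S : Subgroup Ω), (S : Subgroup Ω)⁆ := by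
  obtain ⟨L, hL, hst, hpos, m, hm, hpm⟩ := exists_char_list p hS F hF
  have h := isFBiset_XL F L hL hst hpos
  obtain ⟨x₀, -⟩ := exists_base h
  have hidx : (baseSub S x₀).index = m := by
    have h1 := index_baseSub h x₀
    rw [← mark_bot (G := S × S) (XL L), mark_XL, hm] at h1
    exact Nat.eq_of_mul_eq_mul_left Nat.card_pos h1
  have hfoc : ∀ y ∈ F.focalSubgroup, ∃ hy : y ∈ S, fusTransfer h x₀ ⟨y, hy⟩ = 1 := by
    intro y hy
    unfold FusionSystem.focalSubgroup at hy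
    induction hy using Subgroup.closure_induction with
    | mem y hy =>
      obtain ⟨P, φ, x, hφ, rfl⟩ := hy
      have hxS : (x : Ω) ∈ S := (F.le_of_mem hφ).1 x.2
      have hφS : φ x ∈ S := (F.le_of_mem hφ).2 x
      refine ⟨S.mul_mem (S.inv_mem hxS) hφS, ?_⟩
      have e : (⟨(x : Ω)⁻¹ * φ x, S.mul_mem (S.inv_mem hxS) hφS⟩ : S) =
          (⟨x, hxS⟩ : S)⁻¹ * ⟨φ x, hφS⟩ := rfl
      rw [e, map_mul, map_inv, fusTransfer_stable h x₀ hφ x, inv_mul_cancel]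
    | one => exact ⟨S.one_mem, map_one _⟩
    | mul a b _ _ ha hb =>
      obtain ⟨ha, ha'⟩ := ha
      obtain ⟨hb, hb'⟩ := hb
      refine ⟨S.mul_mem ha hb, ?_⟩
      have e : (⟨a * b, S.mul_mem ha hb⟩ : S) = ⟨a, ha⟩ * ⟨b, hb⟩ := rfl
      rw [e, map_mul, ha', hb', one_mul]
    | inv a _ ha =>
      obtain ⟨ha, ha'⟩ := ha
      refine ⟨S.inv_mem ha, ?_⟩
      have e : (⟨a⁻¹, S.inv_mem ha⟩ : S) = (⟨a, ha⟩ : S)⁻¹ := rfl
      rw [e, map_inv, ha', inv_one]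
  rintro y ⟨hyf, hyz⟩
  obtain ⟨hyS, hy1⟩ := hfoc y hyf
  have hz : ∀ (k : ℕ) (P : Subgroup Ω) (θ : P →* Ω), θ ∈ F.Hom P → ∀ q : P,
      θ q = ((⟨y, hyS⟩ : S) : Ω) ^ k → ∀ hq : (q : Ω) ∈ S,
      Abelianization.of (⟨q, hq⟩ : S) = Abelianization.of ((⟨y, hyS⟩ : S) ^ k) := by
    intro k P θ hθ q hq hqS
    obtain ⟨s, hs, hs'⟩ := hQ P θ hθ q (by rw [hq]; exact Subgroup.pow_mem _ hyz k)
    have e : ((⟨y, hyS⟩ : S) ^ k) = ⟨s, hs⟩ * ⟨q, hqS⟩ * ⟨s, hs⟩⁻¹ := by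
      apply Subtype.ext
      show y ^ k = s * (q : Ω) * s⁻¹
      rw [← hs', hq]
    rw [e, map_mul, map_mul, map_inv, mul_comm, inv_mul_cancel_left]
  rw [fusTransfer_weak h x₀ ⟨y, hyS⟩ hz, hidx] at hy1
  have h6 : Abelianization.of (⟨y, hyS⟩ : S) = 1 := by
    obtain ⟨n, hn⟩ := IsPGroup.iff_card.1 hS
    have h7 : (Abelianization.of (⟨y, hyS⟩ : S)) ^ (p ^ n) = 1 := by
      rw [← map_pow, ← hn, pow_card_eq_one', map_one]
    have h8 := orderOf_dvd_of_pow_eq_one hy1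
    have h9 := orderOf_dvd_of_pow_eq_one h7
    have h10 : Nat.Coprime m (p ^ n) :=
      Nat.Coprime.pow_right n ((Nat.Prime.coprime_iff_not_dvd Fact.out).2 hpm).symm
    have h11 := Nat.dvd_gcd h8 h9
    rw [h10.gcd_eq_one, Nat.dvd_one, orderOf_eq_one_iff] at h11
    exact h11
  rw [← MonoidHom.mem_ker, Abelianization.ker_of] at h6
  have h7 : (commutator S).map S.subtype = ⁅(S : Subgroup Ω), (S : Subgroup Ω)⁆ := by
    rw [commutator_def, Subgroup.map_commutator, ← MonoidHom.range_eq_map,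
      Subgroup.range_subtype]
  rw [← h7]
  exact ⟨⟨y, hyS⟩, h6, rfl⟩

end Cfsg.Agent.Lib.Helper2
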