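import Mathlib
import Cfsg.Agent.Lib.Helper72.DihedralAut
import Cfsg.Agent.Lib.Helper73.DihedralRec
import Cfsg.Agent.Lib.Helper2.SylowBasic
import Cfsg.Agent.Lib.Helper2.CyclicP

/-!
Subgroups with a normal Sylow `p`-subgroup and cyclic quotient (used for S4082).
-/

set_option autoImplicit false
open scoped Pointwise

namespace Cfsg.Agent.Lib.Helper2

variable {G : Type*} [Group G]

/-- an element of a `p`-group of order prime to `p` is trivial -/
theorem eq_one_of_mem_pGroup_of_coprime {p : ℕ} {Q : Subgroup G} (hQ : IsPGroup p Q) {x : G}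
    (hx : x ∈ Q) (hodd : (orderOf x).Coprime p) : x = 1 := by
  obtain ⟨k, hk⟩ := hQ ⟨x, hx⟩
  have h1 : x ^ p ^ k = 1 := by simpa using congrArg Subtype.val hk
  have h2 : orderOf x ∣ p ^ k := orderOf_dvd_of_pow_eq_one h1
  exact orderOf_eq_one_iff.1 (Nat.Coprime.eq_one_of_dvd (Nat.Coprime.pow_right k hodd) h2)

/-- Structure of a group with normal Sylow `p`-subgroup and cyclic quotient. -/
theorem exists_p_by_cyclic_data [Finite G] {p : ℕ} [hp : Fact p.Prime] (H : Subgroup G)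
    (hN : ∀ S : Sylow p ↥H, (S : Subgroup ↥H).Normal)
    (hC : ∀ (S : Sylow p ↥H) [(S : Subgroup ↥H).Normal], IsCyclic (↥H ⧸ (S : Subgroup ↥H))) :
    ∃ (Q : Subgroup G) (y : G), Q ≤ H ∧ IsPGroup p Q ∧ H ≤ Subgroup.normalizer (Q : Set G) ∧ y ∈ H ∧
      (orderOf y).Coprime p ∧ Nat.card H ∣ Nat.card Q * orderOf y := by
  obtain ⟨S⟩ : Nonempty (Sylow p ↥H) := inferInstance
  haveI hSn := hN S
  haveI hcyc := hC S
  obtain ⟨c, hc⟩ := hcyc.exists_generator
  obtain ⟨h, rfl⟩ := QuotientGroup.mk_surjective c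
  have ho : orderOf h ≠ 0 := (orderOf_pos h).ne'
  have hp0 : 0 < p := hp.out.pos
  obtain ⟨a, m, hm, ham⟩ := Nat.exists_eq_pow_mul_and_not_dvd ho p hp.out.ne_one
  have hy0 : orderOf (h ^ p ^ a) = m := by
    rw [orderOf_pow_of_dvd (by positivity) (ham ▸ Dvd.intro _ rfl), ham]
    exact Nat.mul_div_cancel_left _ (by positivity)
  have hmc : m.Coprime p := (Nat.coprime_comm.1 ((Nat.Prime.coprime_iff_not_dvd hp.out).2 hm))
  have hidx : Nat.card (↥H ⧸ (S : Subgroup ↥H)) = orderOf (QuotientGroup.mk h : ↥H ⧸ (S : Subgroup ↥H)) :=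
    (orderOf_eq_card_of_forall_mem_zpowers hc).symm
  have hidx2 : ¬ p ∣ Nat.card (↥H ⧸ (S : Subgroup ↥H)) := by
    have := S.not_dvd_index
    rwa [Subgroup.index_eq_card] at this
  have hdvd : orderOf (QuotientGroup.mk h : ↥H ⧸ (S : Subgroup ↥H)) ∣ m := by
    have h1 : orderOf (QuotientGroup.mk h : ↥H ⧸ (S : Subgroup ↥H)) ∣ p ^ a * m := by
      rw [← ham]
      exact orderOf_map_dvd (QuotientGroup.mk' (S : Subgroup ↥H)) h
    have h2 : (orderOf (QuotientGroup.mk h : ↥H ⧸ (S : Subgroup ↥H))).Coprime (p ^ a) := by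
      apply Nat.Coprime.pow_right
      rw [← hidx]
      exact Nat.coprime_comm.1 ((Nat.Prime.coprime_iff_not_dvd hp.out).2 hidx2)
    exact h2.dvd_of_dvd_mul_left h1
  refine ⟨(S : Subgroup ↥H).map H.subtype, ((h ^ p ^ a : ↥H) : G), ?_, ?_, ?_, (h ^ p ^ a : ↥H).2, ?_, ?_⟩
  · exact Subgroup.map_subtype_le _
  · exact S.2.map _
  · intro g hg
    apply Cfsg.Agent.Lib.Helper72.mem_normalizer_of_conj_mem
    rintro u ⟨v, hv, rfl⟩
    exact ⟨⟨g, hg⟩ * v * ⟨g, hg⟩⁻¹, hSn.conj_mem v hv ⟨g, hg⟩, rfl⟩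
  · rw [Subgroup.orderOf_coe, hy0]; exact hmc
  · rw [Subgroup.orderOf_coe, hy0, Subgroup.card_map_of_injective H.subtype_injective,
      Subgroup.card_eq_card_quotient_mul_card_subgroup (S : Subgroup ↥H), mul_comm, hidx]
    exact Nat.mul_dvd_mul_left _ hdvd

/-- the cyclic case -/
theorem isCyclic_of_p_by_cyclic_data [Finite G] {p : ℕ} [hp : Fact p.Prime] {H Q : Subgroup G} {y : G}
    (hQH : Q ≤ H) (hQ2 : IsPGroup p Q) (hyH : y ∈ H) (hyodd : (orderOf y).Coprime p)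
    (hcard : Nat.card H ∣ Nat.card Q * orderOf y) (hQc : IsCyclic Q)
    (hyc : y ∈ Subgroup.centralizer (Q : Set G)) : IsCyclic H := by
  obtain ⟨s, hs⟩ := (Subgroup.isCyclic_iff_exists_zpowers_eq_top Q).1 hQc
  have hsQ : s ∈ Q := hs ▸ Subgroup.mem_zpowers s
  have hcomm : Commute s y := Subgroup.mem_centralizer_iff.1 hyc s hsQ
  have hos : orderOf s = Nat.card Q := by rw [← hs, Nat.card_zpowers]
  obtain ⟨k, hk⟩ := IsPGroup.iff_card.1 hQ2
  have hcop : (orderOf s).Coprime (orderOf y) := by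
    rw [hos, hk]
    exact (Nat.Coprime.pow_right k hyodd).symm
  have ho := hcomm.orderOf_mul_eq_mul_orderOf_of_coprime hcop
  have hmem : s * y ∈ H := H.mul_mem (hQH hsQ) hyH
  apply isCyclic_of_orderOf_eq_card (⟨s * y, hmem⟩ : H)
  rw [Subgroup.orderOf_mk, ho, hos]
  apply Nat.dvd_antisymm _ hcard
  rw [← hos, ← ho, ← Subgroup.orderOf_mk _ hmem]
  exact orderOf_dvd_natCard _

/-- quotients of `R ⊔ ⟨x⟩` by normal subgroups containing `R` are cyclic -/
theorem isCyclic_quotient_sup_zpowers (R : Subgroup G) (x : G)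
    (N : Subgroup ↥(R ⊔ Subgroup.zpowers x)) [N.Normal]
    (hRN : R.subgroupOf (R ⊔ Subgroup.zpowers x) ≤ N) :
    IsCyclic (↥(R ⊔ Subgroup.zpowers x) ⧸ N) := by
  have hxH : x ∈ R ⊔ Subgroup.zpowers x :=
    (le_sup_right : Subgroup.zpowers x ≤ _) (Subgroup.mem_zpowers x)
  refine ⟨⟨QuotientGroup.mk (⟨x, hxH⟩ : ↥(R ⊔ Subgroup.zpowers x)), fun q => ?_⟩⟩
  obtain ⟨h, rfl⟩ := QuotientGroup.mk_surjective q
  obtain ⟨T, hT⟩ : ∃ T : Subgroup ↥(R ⊔ Subgroup.zpowers x), T =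
    (Subgroup.zpowers (QuotientGroup.mk (⟨x, hxH⟩ : ↥(R ⊔ Subgroup.zpowers x)) :
      ↥(R ⊔ Subgroup.zpowers x) ⧸ N)).comap (QuotientGroup.mk' N) := ⟨_, rfl⟩
  have hle : R ⊔ Subgroup.zpowers x ≤ T.map (R ⊔ Subgroup.zpowers x).subtype := by
    apply sup_le
    · intro k hk
      refine ⟨⟨k, (le_sup_left : R ≤ _) hk⟩, ?_, rfl⟩
      rw [hT, SetLike.mem_coe, Subgroup.mem_comap]
      have : QuotientGroup.mk' N ⟨k, (le_sup_left : R ≤ _) hk⟩ = 1 := by
        rw [QuotientGroup.mk'_apply, QuotientGroup.eq_one_iff]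
        exact hRN (Subgroup.mem_subgroupOf.2 hk)
      rw [this]; exact Subgroup.one_mem _
    · rw [Subgroup.zpowers_le]
      refine ⟨⟨x, hxH⟩, ?_, rfl⟩
      rw [hT, SetLike.mem_coe, Subgroup.mem_comap]
      exact Subgroup.mem_zpowers _
  obtain ⟨h', hh', hh⟩ := hle h.2
  have : h' = h := Subtype.ext hh
  rw [← this]
  rw [hT, SetLike.mem_coe, Subgroup.mem_comap] at hh'
  exact hh'

/-- **Lemma L.** `R ⊔ ⟨x⟩` has a normal Sylow `p`-subgroup with cyclic quotient. -/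
theorem sup_zpowers_p_by_cyclic [Finite G] {p : ℕ} [hp : Fact p.Prime] (R : Subgroup G)
    (hR : IsPGroup p R) (x : G) (hx : x ∈ Subgroup.normalizer (R : Set G)) :
    (∀ S : Sylow p ↥(R ⊔ Subgroup.zpowers x), (S : Subgroup ↥(R ⊔ Subgroup.zpowers x)).Normal) ∧
    (∀ (S : Sylow p ↥(R ⊔ Subgroup.zpowers x)) [(S : Subgroup ↥(R ⊔ Subgroup.zpowers x)).Normal],
      IsCyclic (↥(R ⊔ Subgroup.zpowers x) ⧸ (S : Subgroup ↥(R ⊔ Subgroup.zpowers x)))) := by
  have hHN : R ⊔ Subgroup.zpowers x ≤ Subgroup.normalizer (R : Set G) :=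
    sup_le Subgroup.le_normalizer (Subgroup.zpowers_le.2 hx)
  haveI hRn : (R.subgroupOf (R ⊔ Subgroup.zpowers x)).Normal :=
    (Subgroup.normal_subgroupOf_iff_le_normalizer le_sup_left).2 hHN
  have hRS : ∀ S : Sylow p ↥(R ⊔ Subgroup.zpowers x),
      R.subgroupOf (R ⊔ Subgroup.zpowers x) ≤ (S : Subgroup ↥(R ⊔ Subgroup.zpowers x)) := by
    intro S
    have h1 : IsPGroup p (R.subgroupOf (R ⊔ Subgroup.zpowers x)) :=
      hR.of_equiv (Subgroup.subgroupOfEquivOfLe (le_sup_left : R ≤ R ⊔ Subgroup.zpowers x)).symm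
    obtain ⟨S', hS'⟩ := h1.exists_le_sylow
    obtain ⟨g, hg⟩ := MulAction.exists_smul_eq ↥(R ⊔ Subgroup.zpowers x) S' S
    intro u hu
    rw [← hg]
    show u ∈ g • S'
    rw [mem_sylow_smul_iff]
    apply hS'
    have := hRn.conj_mem u hu g⁻¹
    simpa using this
  haveI hcyc := isCyclic_quotient_sup_zpowers R x (R.subgroupOf (R ⊔ Subgroup.zpowers x)) le_rfl
  constructor
  · intro S
    refine ⟨fun n hn g => ?_⟩
    have h1 : g * n * g⁻¹ * n⁻¹ ∈ R.subgroupOf (R ⊔ Subgroup.zpowers x) := by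
      rw [← QuotientGroup.eq_one_iff]
      obtain ⟨c, hc⟩ := hcyc.exists_generator
      obtain ⟨i, hi⟩ := Subgroup.mem_zpowers_iff.1 (hc (QuotientGroup.mk g))
      obtain ⟨j, hj⟩ := Subgroup.mem_zpowers_iff.1 (hc (QuotientGroup.mk n))
      rw [QuotientGroup.mk_mul, QuotientGroup.mk_mul, QuotientGroup.mk_mul, QuotientGroup.mk_inv,
        QuotientGroup.mk_inv, ← hi, ← hj, ← zpow_add, ← zpow_neg, ← zpow_add, ← zpow_neg, ← zpow_add]
      have : i + j + -i + -j = 0 := by ring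
      rw [this, zpow_zero]
    have h2 := (S : Subgroup ↥(R ⊔ Subgroup.zpowers x)).mul_mem (hRS S h1) hn
    simpa using h2
  · intro S hS
    exact isCyclic_quotient_sup_zpowers R x _ (hRS S)

theorem comm_of_mem_isCyclic {A : Subgroup G} (hA : IsCyclic A) {a b : G} (ha : a ∈ A) (hb : b ∈ A) :
    a * b = b * a := by
  obtain ⟨c, hc⟩ := (Subgroup.isCyclic_iff_exists_zpowers_eq_top A).1 hA
  rw [← hc] at ha hb
  obtain ⟨i, rfl⟩ := Subgroup.mem_zpowers_iff.1 ha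
  obtain ⟨j, rfl⟩ := Subgroup.mem_zpowers_iff.1 hb
  rw [← zpow_add, ← zpow_add, add_comm]

/-- **Lemma E.** -/
theorem inverts_of_restricted [Finite G] {p : ℕ} [hp : Fact p.Prime] (hp2 : p ≠ 2)
    (hL : ∀ H : Subgroup G, (∀ S : Sylow p ↥H, (S : Subgroup ↥H).Normal) →
        (∀ (S : Sylow p ↥H) [(S : Subgroup ↥H).Normal], IsCyclic (↥H ⧸ (S : Subgroup ↥H))) →
        IsCyclic H ∨ (∃ n : ℕ, Nonempty (H ≃* DihedralGroup (p ^ n))))
    (R : Subgroup G) (hR : IsPGroup p R) (x : G) (hx : x ∈ Subgroup.normalizer (R : Set G))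
    (hxC : x ∉ Subgroup.centralizer (R : Set G)) :
    x * x = 1 ∧ ∀ u ∈ R, x * u * x⁻¹ = u⁻¹ := by
  obtain ⟨hN, hC⟩ := sup_zpowers_p_by_cyclic R hR x hx
  have hxH : x ∈ R ⊔ Subgroup.zpowers x :=
    (le_sup_right : Subgroup.zpowers x ≤ _) (Subgroup.mem_zpowers x)
  have hRH : R ≤ R ⊔ Subgroup.zpowers x := le_sup_left
  rcases hL _ hN hC with hc | ⟨n, ⟨e⟩⟩
  · exfalso
    apply hxC
    rw [Subgroup.mem_centralizer_iff]
    intro u hu
    exact comm_of_mem_isCyclic hc (hRH hu) hxH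
  · have hr : ∀ u (hu : u ∈ R), ∃ i, e ⟨u, hRH hu⟩ = DihedralGroup.r i := by
      intro u hu
      rcases h : e ⟨u, hRH hu⟩ with i | i
      · exact ⟨i, rfl⟩
      · exfalso
        have h1 : e (⟨u, hRH hu⟩ * ⟨u, hRH hu⟩) = 1 := by rw [map_mul, h, DihedralGroup.sr_mul_self]
        have h2 : (⟨u, hRH hu⟩ * ⟨u, hRH hu⟩ : ↥(R ⊔ Subgroup.zpowers x)) = 1 :=
          e.injective (by rw [h1, map_one])
        have h3 : u ^ 2 = 1 := by rw [sq]; exact congrArg Subtype.val h2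
        have h4 : (orderOf u).Coprime p := by
          have h5 : orderOf u ∣ 2 := orderOf_dvd_of_pow_eq_one h3
          exact Nat.Coprime.coprime_dvd_left h5
            ((Nat.coprime_primes Nat.prime_two hp.out).2 (Ne.symm hp2))
        have h6 := eq_one_of_mem_pGroup_of_coprime hR hu h4
        subst h6
        have h7 : e (⟨1, hRH hu⟩ : ↥(R ⊔ Subgroup.zpowers x)) = 1 := map_one e
        rw [h7, DihedralGroup.one_def] at h
        cases h
    rcases hx' : e ⟨x, hxH⟩ with j | j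
    · exfalso
      apply hxC
      rw [Subgroup.mem_centralizer_iff]
      intro u hu
      obtain ⟨i, hi⟩ := hr u hu
      have h1 : (⟨u, hRH hu⟩ * ⟨x, hxH⟩ : ↥(R ⊔ Subgroup.zpowers x)) = ⟨x, hxH⟩ * ⟨u, hRH hu⟩ := by
        apply e.injective
        rw [map_mul, map_mul, hi, hx', DihedralGroup.r_mul_r, DihedralGroup.r_mul_r, add_comm]
      exact congrArg Subtype.val h1
    · constructor
      · have h1 : e (⟨x, hxH⟩ * ⟨x, hxH⟩) = 1 := by rw [map_mul, hx', DihedralGroup.sr_mul_self]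
        have h2 : (⟨x, hxH⟩ * ⟨x, hxH⟩ : ↥(R ⊔ Subgroup.zpowers x)) = 1 :=
          e.injective (by rw [h1, map_one])
        exact congrArg Subtype.val h2
      · intro u hu
        obtain ⟨i, hi⟩ := hr u hu
        have h1 : (⟨x, hxH⟩ * ⟨u, hRH hu⟩ * ⟨x, hxH⟩⁻¹ : ↥(R ⊔ Subgroup.zpowers x)) =
            ⟨u, hRH hu⟩⁻¹ := by
          apply e.injective
          rw [map_mul, map_mul, map_inv, map_inv, hi, hx', DihedralGroup.inv_sr, DihedralGroup.inv_r,
            DihedralGroup.sr_mul_r, DihedralGroup.sr_mul_sr]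
          congr 1
          ring
        exact congrArg Subtype.val h1

/-- subgroups of prime order of a cyclic `p`-group coincide -/
theorem eq_of_card_prime_of_le_cyclic [Finite G] {p : ℕ} [hp : Fact p.Prime] (A : Subgroup G)
    (hAc : IsCyclic A) (hA : IsPGroup p A) (U V : Subgroup G) (hU : U ≤ A) (hV : V ≤ A)
    (hUc : Nat.card U = p) (hVc : Nat.card V = p) : U = V := by
  have hne : U ⊓ V ≠ ⊥ := by
    intro h
    rcases eq_bot_or_eq_bot_of_inf_eq_bot_of_cyclic A hA U V hU hV h with h1 | h1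
    · rw [h1, Subgroup.card_bot] at hUc; exact hp.out.one_lt.ne hUc
    · rw [h1, Subgroup.card_bot] at hVc; exact hp.out.one_lt.ne hVc
  obtain ⟨w, hw1⟩ := (Subgroup.ne_bot_iff_exists_ne_one.1 hne)
  have hw1' : (w : G) ≠ 1 := fun h => hw1 (Subtype.ext h)
  have key : ∀ W : Subgroup G, (w : G) ∈ W → Nat.card W = p → Subgroup.zpowers (w : G) = W := by
    intro W hwW hW
    apply Subgroup.eq_of_le_of_card_ge (Subgroup.zpowers_le.2 hwW)
    rw [Nat.card_zpowers, hW]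
    have h1 : orderOf (w : G) ∣ p := by
      rw [← hW, ← Subgroup.orderOf_mk _ hwW]; exact orderOf_dvd_natCard _
    rcases (Nat.dvd_prime hp.out).1 h1 with h2 | h2
    · exact absurd (orderOf_eq_one_iff.1 h2) hw1'
    · exact h2.ge
  rw [← key U (Subgroup.mem_inf.1 w.2).1 hUc, key V (Subgroup.mem_inf.1 w.2).2 hVc]

end Cfsg.Agent.Lib.Helper2
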