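import Mathlib

set_option autoImplicit false

namespace Cfsg.Agent.Lib.Helper2

open Subgroup
open scoped commutatorElement IsMulCommutative

/-- A finite cyclic group embeds in `ℂˣ`. -/
theorem exists_injective_hom_complex_units (Z : Type*) [CommGroup Z] [Finite Z] [IsCyclic Z] :
    ∃ ι : Z →* ℂˣ, Function.Injective ι := by
  haveI : NeZero (Nat.card Z) := ⟨Nat.card_pos.ne'⟩
  have h1 : Nat.card Z = Nat.card (rootsOfUnity (Nat.card Z) ℂ) := by
    rw [Complex.card_rootsOfUnity]
  let e := mulEquivOfCyclicCardEq h1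
  exact ⟨(rootsOfUnity (Nat.card Z) ℂ).subtype.comp e.toMonoidHom,
    (Subgroup.subtype_injective _).comp e.injective⟩

/-- `|Hom(V, Z)| ≤ |V|` for a finite abelian group `V` and a finite cyclic group `Z`. -/
theorem card_monoidHom_le (V : Type*) [CommGroup V] [Finite V] (Z : Type*) [CommGroup Z] [Finite Z]
    [IsCyclic Z] : Nat.card (V →* Z) ≤ Nat.card V := by
  obtain ⟨ι, hι⟩ := exists_injective_hom_complex_units Z
  have h1 : Nat.card (V →* ℂˣ) = Nat.card V := CommGroup.card_monoidHom_of_hasEnoughRootsOfUnity V ℂ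
  haveI : Finite (V →* ℂˣ) := Nat.finite_of_card_ne_zero (by rw [h1]; exact Nat.card_pos.ne')
  rw [← h1]
  apply Nat.card_le_card_of_injective (fun f : V →* Z => ι.comp f)
  intro f g hfg
  ext v
  apply hι
  exact DFunLike.congr_fun hfg v

/-- `|Hom(Y, Z)| ≤ |Y : Y'|` for a finite group `Y` and a finite cyclic group `Z`. -/
theorem card_monoidHom_le_index_commutator (Y : Type*) [Group Y] [Finite Y] (Z : Type*) [CommGroup Z]
    [Finite Z] [IsCyclic Z] : Nat.card (Y →* Z) ≤ (commutator Y).index := by
  rw [Nat.card_congr (Abelianization.lift (G := Y) (A := Z))]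
  exact card_monoidHom_le (Abelianization Y) Z

/-- For a pairing `β : X × Y → Z` into a cyclic group, the index of the left kernel is at most the
index of the right kernel. -/
theorem index_ker_le_index_flip_ker {X Y Z : Type*} [Group X] [Group Y] [Finite X] [Finite Y]
    [CommGroup Z] [Finite Z] [IsCyclic Z] (β : X →* (Y →* Z)) :
    β.ker.index ≤ β.flip.ker.index := by
  let V := β.flip.range
  haveI : Finite V := by
    have : Finite (Set.range β.flip) := Set.finite_range _
    exact this
  let Ψ : X →* (V →* Z) :=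
    { toFun := fun x => (MonoidHom.eval x).comp V.subtype
      map_one' := by ext v; simp
      map_mul' := by intro a b; ext v; simp }
  have hker : Ψ.ker = β.ker := by
    ext x
    rw [MonoidHom.mem_ker, MonoidHom.mem_ker]
    constructor
    · intro h
      ext y
      have := DFunLike.congr_fun h ⟨β.flip y, ⟨y, rfl⟩⟩
      simpa [Ψ] using this
    · intro h
      ext ⟨v, ⟨y, rfl⟩⟩
      have := DFunLike.congr_fun h y
      simpa [Ψ] using this
  rw [← hker, Subgroup.index_ker, Subgroup.index_ker]
  calc Nat.card Ψ.range ≤ Nat.card (V →* Z) := by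
        haveI : Finite (V →* Z) := by
          exact Finite.of_injective (fun f : V →* Z => (f : V → Z)) DFunLike.coe_injective
        exact Nat.card_le_card_of_injective _ (Subgroup.subtype_injective _)
    _ ≤ Nat.card V := card_monoidHom_le V Z

/-- For a pairing `β : X × Y → Z` into a cyclic group, the left and right kernels have the same
index. -/
theorem index_ker_eq_index_flip_ker {X Y Z : Type*} [Group X] [Group Y] [Finite X] [Finite Y]
    [CommGroup Z] [Finite Z] [IsCyclic Z] (β : X →* (Y →* Z)) :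
    β.ker.index = β.flip.ker.index :=
  le_antisymm (index_ker_le_index_flip_ker β) (index_ker_le_index_flip_ker β.flip)

/-- The commutator pairing `P × P → Z(P)` of a group of class at most two. -/
def commPair {P : Type*} [Group P] (hc : ∀ x y : P, ⁅x, y⁆ ∈ Subgroup.center P) :
    P →* (P →* Subgroup.center P) where
  toFun x :=
    { toFun := fun y => ⟨⁅x, y⁆, hc x y⟩
      map_one' := by apply Subtype.ext; simp
      map_mul' := by
        intro e1 e2
        apply Subtype.ext
        change ⁅x, e1 * e2⁆ = ⁅x, e1⁆ * ⁅x, e2⁆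
        have h3 : e1 * ⁅x, e2⁆ = ⁅x, e2⁆ * e1 := (Subgroup.mem_center_iff.mp (hc x e2)) e1
        have h4 : ⁅x, e1 * e2⁆ = ⁅x, e1⁆ * (e1 * ⁅x, e2⁆) * e1⁻¹ := by
          simp only [commutatorElement_def]; group
        rw [h4, h3]; group }
  map_one' := by
    ext y
    change ⁅(1 : P), y⁆ = 1
    simp
  map_mul' := by
    intro x1 x2
    ext e
    change ⁅x1 * x2, e⁆ = ⁅x1, e⁆ * ⁅x2, e⁆
    have h3 : x1 * ⁅x2, e⁆ = ⁅x2, e⁆ * x1 := (Subgroup.mem_center_iff.mp (hc x2 e)) x1
    have h5 : ⁅x1, e⁆ * ⁅x2, e⁆ = ⁅x2, e⁆ * ⁅x1, e⁆ := (Subgroup.mem_center_iff.mp (hc x2 e)) _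
    have h4 : ⁅x1 * x2, e⁆ = (x1 * ⁅x2, e⁆) * x1⁻¹ * ⁅x1, e⁆ := by
      simp only [commutatorElement_def]; group
    rw [h4, h3, h5]; group

theorem commPair_apply {P : Type*} [Group P] (hc : ∀ x y : P, ⁅x, y⁆ ∈ Subgroup.center P) (x y : P) :
    (commPair hc x y : P) = ⁅x, y⁆ := rfl

/-- A maximal abelian subgroup is self-centralizing. -/
theorem centralizer_eq_of_maximal_abelian {P : Type*} [Group P] {A : Subgroup P}
    (hA : Maximal (fun A : Subgroup P => IsMulCommutative A) A) :
    Subgroup.centralizer (A : Set P) = A := by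
  have hAc : IsMulCommutative A := hA.prop
  apply le_antisymm
  · intro x hx
    have hcomm : IsMulCommutative (Subgroup.closure ((A : Set P) ∪ {x})) := by
      apply Subgroup.isMulCommutative_closure
      rintro u (hu | hu) v (hv | hv)
      · exact congrArg Subtype.val (hAc.is_comm.comm ⟨u, hu⟩ ⟨v, hv⟩)
      · rw [Set.mem_singleton_iff.mp hv]
        exact (Subgroup.mem_centralizer_iff.mp hx) u hu
      · rw [Set.mem_singleton_iff.mp hu]
        exact ((Subgroup.mem_centralizer_iff.mp hx) v hv).symm
      · rw [Set.mem_singleton_iff.mp hu, Set.mem_singleton_iff.mp hv]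
    have hle : A ≤ Subgroup.closure ((A : Set P) ∪ {x}) := fun a ha =>
      Subgroup.subset_closure (Or.inl ha)
    exact hA.le_of_ge hcomm hle (Subgroup.subset_closure (Or.inr rfl))
  · intro x hx
    rw [Subgroup.mem_centralizer_iff]
    intro y hy
    exact congrArg Subtype.val (hAc.is_comm.comm ⟨y, hy⟩ ⟨x, hx⟩)

end Cfsg.Agent.Lib.Helper2
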