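import Mathlib
import Cfsg.Agent.Lib.Helper72.DihedralAut
import Cfsg.Agent.Lib.Helper73.DihedralRec
import Cfsg.Agent.Lib.Helper14.KleinNormalizer
import Cfsg.Agent.Lib.Helper2.FourOdd

/-!
Subgroups with a normal Sylow `2`-subgroup and cyclic quotient (used for S4083).
-/

set_option autoImplicit false
open scoped Pointwise

namespace Cfsg.Agent.Lib.Helper2

variable {G : Type*} [Group G]

/-- an element of a `2`-group of odd order is trivial -/
theorem eq_one_of_mem_two_group_of_odd {Q : Subgroup G} (hQ : IsPGroup 2 Q) {x : G} (hx : x ∈ Q)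
    (hodd : (orderOf x).Coprime 2) : x = 1 := by
  obtain ⟨k, hk⟩ := hQ ⟨x, hx⟩
  have h1 : x ^ 2 ^ k = 1 := by simpa using congrArg Subtype.val hk
  have h2 : orderOf x ∣ 2 ^ k := orderOf_dvd_of_pow_eq_one h1
  have h3 : orderOf x = 1 := Nat.eq_one_of_self_dvd_coprime_aux h2 hodd
  exact orderOf_eq_one_iff.1 h3
where
  Nat.eq_one_of_self_dvd_coprime_aux {a k : ℕ} (h : a ∣ 2 ^ k) (hc : a.Coprime 2) : a = 1 :=
    Nat.eq_one_of_self_dvd_of_coprime' h (Nat.Coprime.pow_right k hc)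
  Nat.eq_one_of_self_dvd_of_coprime' {a b : ℕ} (h : a ∣ b) (hc : a.Coprime b) : a = 1 :=
    Nat.Coprime.eq_one_of_dvd hc h

/-- Structure of a group with normal Sylow `2`-subgroup and cyclic quotient. -/
theorem exists_two_by_cyclic_data [Finite G] (H : Subgroup G)
    (hN : ∀ S : Sylow 2 ↥H, (S : Subgroup ↥H).Normal)
    (hC : ∀ (S : Sylow 2 ↥H) [(S : Subgroup ↥H).Normal], IsCyclic (↥H ⧸ (S : Subgroup ↥H))) :
    ∃ (Q : Subgroup G) (y : G), Q ≤ H ∧ IsPGroup 2 Q ∧ H ≤ Subgroup.normalizer (Q : Set G) ∧ y ∈ H ∧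
      (orderOf y).Coprime 2 ∧ Nat.card H ∣ Nat.card Q * orderOf y := by
  haveI : Fact (2 : ℕ).Prime := ⟨Nat.prime_two⟩
  obtain ⟨S⟩ : Nonempty (Sylow 2 ↥H) := inferInstance
  haveI hSn := hN S
  haveI hcyc := hC S
  obtain ⟨c, hc⟩ := hcyc.exists_generator
  obtain ⟨h, rfl⟩ := QuotientGroup.mk_surjective c
  have ho : orderOf h ≠ 0 := (orderOf_pos h).ne'
  obtain ⟨a, m, hm, ham⟩ := Nat.exists_eq_pow_mul_and_not_dvd ho 2 (by norm_num)
  have hy0 : orderOf (h ^ 2 ^ a) = m := by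
    rw [orderOf_pow_of_dvd (by positivity) (ham ▸ Dvd.intro _ rfl), ham]
    exact Nat.mul_div_cancel_left _ (by positivity)
  have hmc : m.Coprime 2 := (Nat.coprime_comm.1 ((Nat.Prime.coprime_iff_not_dvd Nat.prime_two).2 hm))
  have hidx : Nat.card (↥H ⧸ (S : Subgroup ↥H)) = orderOf (QuotientGroup.mk h : ↥H ⧸ (S : Subgroup ↥H)) :=
    (orderOf_eq_card_of_forall_mem_zpowers hc).symm
  have hidx2 : ¬ 2 ∣ Nat.card (↥H ⧸ (S : Subgroup ↥H)) := by
    have := S.not_dvd_index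
    rwa [Subgroup.index_eq_card] at this
  have hdvd : orderOf (QuotientGroup.mk h : ↥H ⧸ (S : Subgroup ↥H)) ∣ m := by
    have h1 : orderOf (QuotientGroup.mk h : ↥H ⧸ (S : Subgroup ↥H)) ∣ 2 ^ a * m := by
      rw [← ham]
      exact orderOf_map_dvd (QuotientGroup.mk' (S : Subgroup ↥H)) h
    have h2 : (orderOf (QuotientGroup.mk h : ↥H ⧸ (S : Subgroup ↥H))).Coprime (2 ^ a) := by
      apply Nat.Coprime.pow_right
      rw [← hidx]
      exact Nat.coprime_comm.1 ((Nat.Prime.coprime_iff_not_dvd Nat.prime_two).2 hidx2)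
    exact h2.dvd_of_dvd_mul_left h1
  refine ⟨(S : Subgroup ↥H).map H.subtype, ((h ^ 2 ^ a : ↥H) : G), ?_, ?_, ?_, (h ^ 2 ^ a : ↥H).2, ?_, ?_⟩
  · exact Subgroup.map_subtype_le _
  · exact S.2.map _
  · intro g hg
    apply Cfsg.Agent.Lib.Helper72.mem_normalizer_of_conj_mem
    rintro u ⟨v, hv, rfl⟩
    exact ⟨⟨g, hg⟩ * v * ⟨g, hg⟩⁻¹, hSn.conj_mem v hv ⟨g, hg⟩, rfl⟩
  · rw [Subgroup.orderOf_coe, hy0]; exact hmc
  · rw [Subgroup.orderOf_coe, hy0, Subgroup.card_map_of_injective H.subtype_injective,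
      Subgroup.card_eq_card_quotient_mul_card_subgroup (S : Subgroup ↥H), mul_comm, hidx]
    exact Nat.mul_dvd_mul_left _ hdvd

/-- every `2`-subgroup is conjugate into a given Sylow `2`-subgroup -/
theorem exists_conj_le_sylow_two [Finite G] (P : Sylow 2 G) (Q : Subgroup G) (hQ : IsPGroup 2 Q) :
    ∃ g : G, ∀ x ∈ Q, g⁻¹ * x * g ∈ (P : Subgroup G) := by
  haveI : Fact (2 : ℕ).Prime := ⟨Nat.prime_two⟩
  obtain ⟨P', hP'⟩ := hQ.exists_le_sylow
  obtain ⟨g, hg⟩ := MulAction.exists_smul_eq G P P'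
  refine ⟨g, fun x hx => ?_⟩
  have h1 : x ∈ ((g • P : Sylow 2 G) : Subgroup G) := by rw [hg]; exact hP' hx
  rw [Sylow.coe_subgroup_smul, Subgroup.mem_pointwise_smul_iff_inv_smul_mem] at h1
  simpa [MulAut.smul_def, mul_assoc] using h1

/-- the conjugation embedding of `Q` in `P` -/
theorem exists_injective_hom_of_conj {P Q : Subgroup G} {g : G}
    (h : ∀ x ∈ Q, g⁻¹ * x * g ∈ P) : ∃ f : Q →* P, Function.Injective f ∧
      ∀ x : Q, ((f x : P) : G) = g⁻¹ * x * g := by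
  refine ⟨{ toFun := fun x => ⟨g⁻¹ * x * g, h x x.2⟩
            map_one' := by ext; simp
            map_mul' := fun a b => by ext; simp [mul_assoc] }, ?_, fun x => rfl⟩
  intro a b hab
  have h1 : g⁻¹ * (a : G) * g = g⁻¹ * (b : G) * g := congrArg (fun z : P => (z : G)) hab
  exact Subtype.ext (mul_left_cancel (mul_right_cancel h1))

theorem isCyclic_of_two_group_of_sylow_cyclic [Finite G] (P : Sylow 2 G)
    (hP : IsCyclic (P : Subgroup G)) (Q : Subgroup G) (hQ : IsPGroup 2 Q) : IsCyclic Q := by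
  obtain ⟨g, hg⟩ := exists_conj_le_sylow_two P Q hQ
  obtain ⟨f, hf, -⟩ := exists_injective_hom_of_conj hg
  exact isCyclic_of_injective f hf

/-- transport of the self-centralizing property of four-groups -/
theorem centralizer_four_eq [Finite G] (P : Sylow 2 G)
    (hK : ∀ K : Subgroup G, K ≤ P → Nat.card K = 4 → (∀ k ∈ K, k ^ 2 = 1) →
      Subgroup.centralizer (K : Set G) = K)
    (K : Subgroup G) (h4 : Nat.card K = 4) (h2 : ∀ k ∈ K, k ^ 2 = 1) :
    Subgroup.centralizer (K : Set G) = K := by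
  haveI : Fact (2 : ℕ).Prime := ⟨Nat.prime_two⟩
  have hK2 : IsPGroup 2 K := IsPGroup.of_card (n := 2) (by rw [h4]; norm_num)
  obtain ⟨g, hg⟩ := exists_conj_le_sylow_two P K hK2
  set φ : G →* G := (MulAut.conj g⁻¹).toMonoidHom with hφ
  have hφx : ∀ x, φ x = g⁻¹ * x * g := fun x => by simp [hφ]
  have hφi : Function.Injective φ := (MulAut.conj g⁻¹).injective
  have h1 := hK (K.map φ) (by rintro _ ⟨x, hx, rfl⟩; rw [hφx]; exact hg x hx)
    (by rw [Subgroup.card_map_of_injective hφi, h4])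
    (by rintro _ ⟨x, hx, rfl⟩; rw [← map_pow, h2 x hx, map_one])
  ext x
  have h3 : φ x ∈ Subgroup.centralizer ((K.map φ : Subgroup G) : Set G) ↔ φ x ∈ K.map φ := by rw [h1]
  have h4' : φ x ∈ K.map φ ↔ x ∈ K := Subgroup.mem_map_iff_mem hφi
  rw [← h4', ← h3, Subgroup.mem_centralizer_iff, Subgroup.mem_centralizer_iff]
  constructor
  · rintro h _ ⟨k, hk, rfl⟩
    rw [← map_mul, ← map_mul, h k hk]
  · intro h k hk
    apply hφi
    rw [map_mul, map_mul]
    exact h _ ⟨k, hk, rfl⟩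

/-- every `2`-subgroup lies in a subgroup isomorphic to the Sylow `2`-subgroup -/
theorem exists_le_iso_sylow_two [Finite G] (P : Sylow 2 G) (Q : Subgroup G) (hQ : IsPGroup 2 Q) :
    ∃ S₀ : Subgroup G, Q ≤ S₀ ∧ Nonempty (S₀ ≃* (P : Subgroup G)) := by
  haveI : Fact (2 : ℕ).Prime := ⟨Nat.prime_two⟩
  obtain ⟨P', hP'⟩ := hQ.exists_le_sylow
  exact ⟨P', hP', ⟨Sylow.equiv P' P⟩⟩

/-- **Lemma C.** A non-cyclic `2`-subgroup of a dihedral-like group is dihedral and contains a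
four-group. -/
theorem dihedral_of_not_cyclic [Finite G] (S A : Subgroup G) (hA : IsCyclic A)
    (hinv : ∀ s ∈ S, s ∉ A → s * s = 1) (hmul : ∀ s ∈ S, ∀ x ∈ S, s ∉ A → x ∉ A → s * x ∈ A)
    (Q : Subgroup G) (hQS : Q ≤ S) (hQ : IsPGroup 2 Q) (hnc : ¬ IsCyclic Q) :
    (∃ k : ℕ, Nonempty (Q ≃* DihedralGroup (2 ^ k))) ∧
      ∃ K : Subgroup G, K ≤ Q ∧ IsKleinFour K := by
  haveI : Fact (2 : ℕ).Prime := ⟨Nat.prime_two⟩
  have hQA : ¬ Q ≤ A := fun h => hnc (Subgroup.isCyclic_of_le h)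
  obtain ⟨s, hsQ, hsA⟩ := SetLike.not_le_iff_exists.1 hQA
  have hBc : IsCyclic (Q ⊓ A : Subgroup G) := Subgroup.isCyclic_of_le inf_le_right
  obtain ⟨c, hc⟩ := (Subgroup.isCyclic_iff_exists_zpowers_eq_top _).1 hBc
  have hcB : c ∈ Q ⊓ A := hc ▸ Subgroup.mem_zpowers c
  obtain ⟨hcQ, hcA⟩ := Subgroup.mem_inf.1 hcB
  have hss : s * s = 1 := hinv s (hQS hsQ) hsA
  have hsinv : s⁻¹ = s := inv_eq_of_mul_eq_one_left hss
  have hscA : s * c ∉ A := fun h => hsA (by simpa using A.mul_mem h (A.inv_mem hcA))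
  have hsc : (s * c) * (s * c) = 1 := hinv _ (hQS (Q.mul_mem hsQ hcQ)) hscA
  have hconj : s * c * s⁻¹ = c⁻¹ := by
    rw [hsinv]
    exact eq_inv_of_mul_eq_one_left (by simpa [mul_assoc] using hsc)
  -- order of `c`
  obtain ⟨j, hj⟩ := hQ ⟨c, hcQ⟩
  have hcj : c ^ 2 ^ j = 1 := by simpa using congrArg Subtype.val hj
  obtain ⟨k, -, hk⟩ := (Nat.dvd_prime_pow Nat.prime_two).1 (orderOf_dvd_of_pow_eq_one hcj)
  -- index two
  have hidx : (Q ⊓ A).relIndex Q = 2 := by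
    rw [Subgroup.relIndex, Subgroup.index_eq_two_iff]
    refine ⟨⟨s, hsQ⟩, fun b => ?_⟩
    have hb1 : (b * ⟨s, hsQ⟩ ∈ (Q ⊓ A).subgroupOf Q) ↔ (b : G) * s ∈ A := by
      rw [Subgroup.mem_subgroupOf, Subgroup.mem_inf]
      exact ⟨fun h => h.2, fun h => ⟨Q.mul_mem b.2 hsQ, h⟩⟩
    have hb2 : (b ∈ (Q ⊓ A).subgroupOf Q) ↔ (b : G) ∈ A := by
      rw [Subgroup.mem_subgroupOf, Subgroup.mem_inf]
      exact ⟨fun h => h.2, fun h => ⟨b.2, h⟩⟩
    rw [hb1, hb2]
    by_cases hbA : (b : G) ∈ A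
    · right
      exact ⟨hbA, fun h => hsA (by simpa using A.mul_mem (A.inv_mem hbA) h)⟩
    · left
      exact ⟨hmul _ (hQS b.2) s (hQS hsQ) hbA hsA, hbA⟩
  have hcard : Nat.card Q = 2 * 2 ^ k := by
    rw [← card_mul_relIndex' (inf_le_left : Q ⊓ A ≤ Q), hidx, ← hc, Nat.card_zpowers, hk, mul_comm]
  have hk0 : k ≠ 0 := by
    rintro rfl
    apply hnc
    haveI : Fact (Nat.card Q).Prime := ⟨by rw [hcard]; norm_num⟩
    exact isCyclic_of_prime_card (p := Nat.card Q) rfl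
  refine ⟨⟨k, ?_⟩, ?_⟩
  · apply Cfsg.Agent.Lib.Helper73.nonempty_mulEquiv_dihedralGroup (2 ^ k) (⟨c, hcQ⟩ : Q) ⟨s, hsQ⟩
    · rw [Subgroup.orderOf_mk, hk]
    · ext; simp [sq, hss]
    · ext; simpa using hconj
    · intro h
      obtain ⟨i, hi⟩ := Subgroup.mem_zpowers_iff.1 h
      apply hsA
      have h1 : c ^ i = s := by simpa using congrArg Subtype.val hi
      rw [← h1]; exact A.zpow_mem hcA i
    · exact hcard
  · obtain ⟨k', rfl⟩ := Nat.exists_eq_succ_of_ne_zero hk0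
    set z := c ^ 2 ^ k' with hz
    have hz2 : z ^ 2 = 1 := by
      rw [hz, ← pow_mul, ← pow_succ, ← hk]; exact pow_orderOf_eq_one c
    have hz1 : z ≠ 1 := by
      intro h
      have h1 := orderOf_dvd_of_pow_eq_one h
      rw [hk] at h1
      have h2 := Nat.le_of_dvd (by positivity) h1
      rw [pow_succ] at h2
      have : 0 < 2 ^ k' := by positivity
      omega
    have hzA : z ∈ A := A.pow_mem hcA _
    have hzQ : z ∈ Q := Q.pow_mem hcQ _
    have hzs : z ≠ s := fun h => hsA (h ▸ hzA)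
    have hs1 : s ≠ 1 := fun h => hsA (h ▸ A.one_mem)
    have hzinv : z⁻¹ = z := inv_eq_of_mul_eq_one_left (by rw [← sq]; exact hz2)
    have hcomm : z * s = s * z := by
      have h1 : s * z * s⁻¹ = z⁻¹ := by
        rw [hz, ← conj_pow, hconj, inv_pow]
      rw [hzinv] at h1
      calc z * s = (s * z * s⁻¹) * s := by rw [h1]
        _ = s * z := by group
    refine ⟨Subgroup.closure {z, s}, ?_, Cfsg.Agent.Lib.Helper9.isKleinFour_closure_pair hz1 hs1 hzs hz2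
      (by rw [sq]; exact hss) hcomm⟩
    rw [Subgroup.closure_le]
    rintro x (rfl | rfl)
    · exact hzQ
    · exact hsQ

theorem conj_sq_eq (y a : G) : y ^ 2 * a * (y ^ 2)⁻¹ = y * (y * a * y⁻¹) * y⁻¹ := by
  simp [sq, mul_assoc]

theorem conj_cube_eq (y a : G) :
    y ^ 3 * a * (y ^ 3)⁻¹ = y * (y * (y * a * y⁻¹) * y⁻¹) * y⁻¹ := by
  simp [pow_succ, mul_assoc]

/-- An odd order element normalizing a self-centralizing four-group has cube one. -/
theorem pow_three_eq_one_of_normalizes_four {Q : Subgroup G} (hQ4 : IsKleinFour Q)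
    (hC : Subgroup.centralizer (Q : Set G) = Q) {y : G} (hy : ∀ x ∈ Q, y * x * y⁻¹ ∈ Q)
    (hodd : (orderOf y).Coprime 2) : y ^ 3 = 1 := by
  haveI : Fact (2 : ℕ).Prime := ⟨Nat.prime_two⟩
  have hQ2 : IsPGroup 2 Q := IsPGroup.of_card (n := 2) (by rw [hQ4.card_four]; norm_num)
  have hpowodd : ∀ n : ℕ, (orderOf (y ^ n)).Coprime 2 := fun n =>
    Nat.Coprime.coprime_dvd_left (orderOf_pow_dvd n) hodd
  -- an element fixing two distinct non-identity elements centralizes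
  have hfix : ∀ g a b : G, a ∈ Q → b ∈ Q → a ≠ 1 → b ≠ 1 → a ≠ b → g * a * g⁻¹ = a →
      g * b * g⁻¹ = b → g ∈ Q := by
    intro g a b ha hb ha1 hb1 hab hga hgb
    rw [← hC, Subgroup.mem_centralizer_iff]
    have hga' : a * g = g * a := by
      calc a * g = (g * a * g⁻¹) * g := by rw [hga]
        _ = g * a := by group
    have hgb' : b * g = g * b := by
      calc b * g = (g * b * g⁻¹) * g := by rw [hgb]
        _ = g * b := by group
    intro w hw
    rcases four_cases hQ4 ha hb hw ha1 hb1 hab with rfl | rfl | rfl | rfl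
    · simp
    · exact hga'
    · exact hgb'
    · rw [mul_assoc, hgb', ← mul_assoc, hga', mul_assoc]
  by_cases hall : ∀ x ∈ Q, y * x * y⁻¹ = x
  · have h1 : y ∈ Q := by
      rw [← hC, Subgroup.mem_centralizer_iff]
      intro w hw
      calc w * y = (y * w * y⁻¹) * y := by rw [hall w hw]
        _ = y * w := by group
    rw [eq_one_of_mem_two_group_of_odd hQ2 h1 hodd, one_pow]
  push Not at hall
  obtain ⟨a, ha, hya⟩ := hall
  have ha1 : a ≠ 1 := by rintro rfl; simp at hya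
  obtain ⟨b, hb⟩ : ∃ b, b = y * a * y⁻¹ := ⟨_, rfl⟩
  have hbQ : b ∈ Q := hb ▸ hy a ha
  have hb1 : b ≠ 1 := by
    intro h
    apply ha1
    have : y * a * y⁻¹ = 1 := hb ▸ h
    simpa using this
  have hab : a ≠ b := fun h => hya (hb ▸ h.symm)
  have hinj : ∀ u v : G, y * u * y⁻¹ = y * v * y⁻¹ → u = v := fun u v h =>
    mul_left_cancel (mul_right_cancel h)
  rcases four_cases hQ4 ha hbQ (hy b hbQ) ha1 hb1 hab with h | h | h | h
  · exact absurd (by simpa using h) hb1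
  · -- `y ^ 2` centralizes
    exfalso
    have h2a : y ^ 2 * a * (y ^ 2)⁻¹ = a := by
      rw [conj_sq_eq, ← hb, h]
    have h2b : y ^ 2 * b * (y ^ 2)⁻¹ = b := by
      rw [conj_sq_eq, h, ← hb]
    have h3 := hfix _ a b ha hbQ ha1 hb1 hab h2a h2b
    have h4 : y ^ 2 = 1 := eq_one_of_mem_two_group_of_odd hQ2 h3 (hpowodd 2)
    have h5 : orderOf y ∣ 2 := orderOf_dvd_of_pow_eq_one h4
    have h6 : orderOf y = 1 := Nat.Coprime.eq_one_of_dvd hodd h5
    rw [orderOf_eq_one_iff] at h6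
    apply hya
    rw [h6]; simp
  · exact absurd (hinj _ _ (h.trans hb)) hab.symm
  · have hyab : y * (a * b) * y⁻¹ = a := by
      calc y * (a * b) * y⁻¹ = (y * a * y⁻¹) * (y * b * y⁻¹) := by group
        _ = b * (a * b) := by rw [← hb, h]
        _ = a * (b * b) := by rw [← mul_assoc, four_comm hQ4 hbQ ha, mul_assoc]
        _ = a := by rw [four_sq hQ4 hbQ, mul_one]
    have h3a : y ^ 3 * a * (y ^ 3)⁻¹ = a := by
      rw [conj_cube_eq, ← hb, h, hyab]
    have h3b : y ^ 3 * b * (y ^ 3)⁻¹ = b := by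
      rw [conj_cube_eq, h, hyab, ← hb]
    exact eq_one_of_mem_two_group_of_odd hQ2 (hfix _ a b ha hbQ ha1 hb1 hab h3a h3b) (hpowodd 3)

end Cfsg.Agent.Lib.Helper2
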